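import Mathlib
import Cfsg.Agent.OddLocal.UniqueSubgroup

/-! Finite groups in which every involution has abelian centralizer: elementary facts. -/

set_option autoImplicit false
set_option linter.unusedSectionVars false
set_option linter.style.haveILetI false

namespace Cfsg.Agent.OddChar.InvCentAb

open Subgroup MulAction
open scoped Pointwise

variable {G : Type*} [Group G] [Finite G]

/-- A group with abelian centralizers of involutions and non-cyclic non-normal Sylow two-subgroups. -/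
structure Hyp (G : Type*) [Group G] : Prop where
  comm : ∀ t : G, orderOf t = 2 → ∀ a b : G, Commute a t → Commute b t → Commute a b
  noncyclic : ∀ P : Sylow 2 G, ¬ IsCyclic P
  nonnormal : ∀ P : Sylow 2 G, ¬ (P : Subgroup G).Normal

/-- The centralizer of a Sylow subgroup. -/
def AC (P : Sylow 2 G) : Subgroup G := Subgroup.centralizer ((P : Subgroup G) : Set G)

/-- The involutions of a Sylow subgroup. -/
def invs (P : Sylow 2 G) : Set G := {v | orderOf v = 2 ∧ v ∈ (P : Subgroup G)}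

/-- The involutions carrying `P` to `Q`. -/
def W (P Q : Sylow 2 G) : Set G := {w | orderOf w = 2 ∧ w • P = Q}

/-- The stabilizer of two points. -/
def D (P Q : Sylow 2 G) : Subgroup G := stabilizer G P ⊓ stabilizer G Q

/-- The part of the centralizer of `P` fixing `Q`. -/
def E (P Q : Sylow 2 G) : Subgroup G := AC P ⊓ stabilizer G Q

theorem inv_mul_self {v : G} (hv : orderOf v = 2) : v * v = 1 := by
  rw [← pow_two, ← hv, pow_orderOf_eq_one]

theorem inv_eq_self {v : G} (hv : orderOf v = 2) : v⁻¹ = v :=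
  inv_eq_of_mul_eq_one_right (inv_mul_self hv)

theorem inv_of_mul_self {v : G} (h : v * v = 1) (h1 : v ≠ 1) : orderOf v = 2 :=
  orderOf_eq_prime (by rw [pow_two, h]) h1

theorem inv_ne_one {v : G} (hv : orderOf v = 2) : v ≠ 1 := by
  rintro rfl
  simp at hv

theorem inv_conj {v : G} (hv : orderOf v = 2) (g : G) : orderOf (g * v * g⁻¹) = 2 := by
  rw [← MulAut.conj_apply, MulEquiv.orderOf_eq]
  exact hv

theorem two_group_zpowers {v : G} (hv : orderOf v = 2) : IsPGroup 2 (zpowers v) :=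
  IsPGroup.of_card (n := 1) (by rw [Nat.card_zpowers, hv, pow_one])

theorem mem_smul_iff {g x : G} {P : Sylow 2 G} :
    g * x * g⁻¹ ∈ ((g • P : Sylow 2 G) : Subgroup G) ↔ x ∈ (P : Subgroup G) := by
  rw [Sylow.coe_subgroup_smul, ← MulAut.conj_apply, ← MulAut.smul_def,
    Subgroup.smul_mem_pointwise_smul_iff]

theorem exists_sylow {v : G} (hv : orderOf v = 2) : ∃ P : Sylow 2 G, v ∈ (P : Subgroup G) := by
  obtain ⟨P, hP⟩ := (two_group_zpowers hv).exists_le_sylow
  exact ⟨P, hP (mem_zpowers v)⟩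

theorem odd_card_of_no_inv {K : Subgroup G} (h : ∀ x ∈ K, orderOf x ≠ 2) : Odd (Nat.card K) := by
  rw [Nat.odd_iff]
  by_contra hc
  obtain ⟨x, hx⟩ := exists_prime_orderOf_dvd_card' (G := K) 2 (Nat.dvd_of_mod_eq_zero (by omega))
  exact h x x.2 (by rw [Subgroup.orderOf_coe]; exact hx)

theorem pow_odd_eq {x : G} {k : ℕ} (h : x ^ (2 * k + 1) = 1) : x ^ k * x ^ k = x⁻¹ := by
  apply eq_inv_of_mul_eq_one_left
  rw [← pow_add, ← pow_succ, ← two_mul, h]

/-- An element conjugated to its inverse by an involution and the resulting half power. -/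
theorem conj_pow_inv {u x : G} (hu : orderOf u = 2) (h : u * x * u = x⁻¹) (k : ℕ) :
    u * x ^ k * u = (x ^ k)⁻¹ := by
  have h' : u * x * u⁻¹ = x⁻¹ := by rw [inv_eq_self hu]; exact h
  have := congrArg (· ^ k) h'
  simp only [conj_pow, inv_pow] at this
  rwa [inv_eq_self hu] at this

namespace Hyp

variable (h : Hyp G)

include h

theorem nontrivial (P : Sylow 2 G) : Nontrivial P := by
  by_contra hc
  haveI := not_nontrivial_iff_subsingleton.mp hc
  exact h.noncyclic P ⟨⟨1, fun x => ⟨0, Subsingleton.elim _ _⟩⟩⟩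

theorem exists_central (P : Sylow 2 G) :
    ∃ z : G, orderOf z = 2 ∧ z ∈ (P : Subgroup G) ∧ ∀ a ∈ (P : Subgroup G), Commute a z := by
  haveI := h.nontrivial P
  haveI := P.isPGroup'.center_nontrivial
  obtain ⟨n, hn, hc⟩ := (P.isPGroup'.to_subgroup (Subgroup.center P)).nontrivial_iff_card.mp ‹_›
  obtain ⟨z, hz⟩ := exists_prime_orderOf_dvd_card' (G := Subgroup.center P) 2
    (hc ▸ dvd_pow_self 2 (by omega))
  refine ⟨((z : P) : G), by rw [Subgroup.orderOf_coe, Subgroup.orderOf_coe]; exact hz, (z : P).2, ?_⟩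
  intro a ha
  exact congrArg Subtype.val (Subgroup.mem_center_iff.mp z.2 ⟨a, ha⟩)

theorem sylow_comm {P : Sylow 2 G} {a b : G} (ha : a ∈ (P : Subgroup G)) (hb : b ∈ (P : Subgroup G)) :
    Commute a b := by
  obtain ⟨z, hz, -, hc⟩ := h.exists_central P
  exact h.comm z hz a b (hc a ha) (hc b hb)

theorem uniq {P Q : Sylow 2 G} {v : G} (hv : orderOf v = 2) (hP : v ∈ (P : Subgroup G))
    (hQ : v ∈ (Q : Subgroup G)) : P = Q := by
  have hn : (Q : Subgroup G) ≤ Subgroup.normalizer ((P : Subgroup G) : Set G) := by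
    intro q hq
    refine Subgroup.centralizer_le_normalizer _ ?_
    rw [Subgroup.mem_centralizer_iff]
    intro x hx
    exact h.comm v hv x q (h.sylow_comm hx hP) (h.sylow_comm hq hQ)
  have hs := P.is_maximal' (IsPGroup.to_sup_of_normal_left' P.isPGroup' Q.isPGroup' hn) le_sup_left
  have hle : (Q : Subgroup G) ≤ P := le_sup_right.trans hs.le
  exact Sylow.ext (Q.is_maximal' P.isPGroup' hle)

theorem inv_mem_of_fix {u : G} (hu : orderOf u = 2) {P : Sylow 2 G} (hf : u • P = P) :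
    u ∈ (P : Subgroup G) := by
  have := (two_group_zpowers hu).inf_normalizer_sylow P
  exact (this ▸ Subgroup.mem_inf.mpr ⟨mem_zpowers u, Sylow.smul_eq_iff_mem_normalizer.mp hf⟩ :
    u ∈ zpowers u ⊓ (P : Subgroup G)).2

theorem exists_inv (P : Sylow 2 G) : ∃ v, v ∈ invs P := by
  obtain ⟨z, hz, hzP, -⟩ := h.exists_central P
  exact ⟨z, hz, hzP⟩

theorem sylow_le_ac (P : Sylow 2 G) : (P : Subgroup G) ≤ AC P :=
  fun x hx => Subgroup.mem_centralizer_iff.mpr fun y hy => h.sylow_comm hy hx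

theorem mem_ac {P : Sylow 2 G} {v c : G} (hv : v ∈ invs P) (hc : Commute c v) : c ∈ AC P :=
  Subgroup.mem_centralizer_iff.mpr fun x hx => (h.comm v hv.1 c x hc (h.sylow_comm hx hv.2)).symm

omit h in
theorem ac_commute {P : Sylow 2 G} {v c : G} (hv : v ∈ invs P) (hc : c ∈ AC P) : Commute c v :=
  (Subgroup.mem_centralizer_iff.mp hc v hv.2).symm

theorem ac_comm {P : Sylow 2 G} {a b : G} (ha : a ∈ AC P) (hb : b ∈ AC P) : Commute a b := by
  obtain ⟨v, hv⟩ := h.exists_inv P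
  exact h.comm v hv.1 a b (ac_commute hv ha) (ac_commute hv hb)

omit [Finite G] h in
theorem ac_le_stab (P : Sylow 2 G) : AC P ≤ stabilizer G P := by
  rw [Sylow.stabilizer_eq_normalizer]
  exact Subgroup.centralizer_le_normalizer _

omit h in
theorem ac_conj {P : Sylow 2 G} {x : G} (hx : x ∈ AC P) (g : G) : g * x * g⁻¹ ∈ AC (g • P) := by
  refine Subgroup.mem_centralizer_iff.mpr fun y hy => ?_
  have hy' : g⁻¹ * y * g ∈ (P : Subgroup G) := by
    rw [← mem_smul_iff (g := g), show g * (g⁻¹ * y * g) * g⁻¹ = y by group]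
    exact hy
  have e := Subgroup.mem_centralizer_iff.mp hx _ hy'
  calc y * (g * x * g⁻¹) = g * ((g⁻¹ * y * g) * x) * g⁻¹ := by group
    _ = g * (x * (g⁻¹ * y * g)) * g⁻¹ := by rw [e]
    _ = g * x * g⁻¹ * y := by group

theorem inv_mem_of_ac {P : Sylow 2 G} {u : G} (hu : orderOf u = 2) (ha : u ∈ AC P) :
    u ∈ (P : Subgroup G) := h.inv_mem_of_fix hu (ac_le_stab P ha)

theorem not_commute {P Q : Sylow 2 G} {u v : G} (hu : u ∈ invs P) (hv : v ∈ invs Q) (hne : P ≠ Q) :
    ¬ Commute v u := fun hc => hne (h.uniq hv.1 (h.inv_mem_of_ac hv.1 (h.mem_ac hu hc)) hv.2)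

theorem odd_prod {P Q : Sylow 2 G} {u v : G} (hu : u ∈ invs P) (hv : v ∈ invs Q) (hne : P ≠ Q) :
    Odd (orderOf (u * v)) := by
  rw [← Nat.not_even_iff_odd]
  rintro ⟨k, hk⟩
  have hinv : ∀ {a b : G}, orderOf a = 2 → orderOf b = 2 → a * (a * b) * a = (a * b)⁻¹ := fun {a b} ha hb => by
    rw [mul_inv_rev, inv_eq_self ha, inv_eq_self hb, ← mul_assoc a a, inv_mul_self ha, one_mul]
  set z := (u * v) ^ k with hz
  have hkpos : 0 < k := by
    have := orderOf_pos (u * v)
    omega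
  have hz2 : z * z = 1 := by rw [hz, ← pow_add, ← hk, pow_orderOf_eq_one]
  have hz1 : z ≠ 1 := fun e => by
    have := Nat.le_of_dvd hkpos (orderOf_dvd_of_pow_eq_one e)
    omega
  have hzi : z⁻¹ = z := inv_eq_of_mul_eq_one_right hz2
  have hzu : Commute z u := by
    have e := conj_pow_inv hu.1 (hinv hu.1 hv.1) k
    rw [← hz, hzi] at e
    calc z * u = u * z * u * u := by rw [e]
      _ = u * z := by rw [mul_assoc, inv_mul_self hu.1, mul_one]
  have hzv : Commute z v := by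
    have hc : Commute z (u * v) := Commute.pow_self _ _
    calc z * v = z * (u * (u * v)) := by rw [← mul_assoc u u, inv_mul_self hu.1, one_mul]
      _ = u * (u * v) * z := by rw [← mul_assoc, hzu.eq, mul_assoc, hc.eq, ← mul_assoc]
      _ = v * z := by rw [← mul_assoc u u, inv_mul_self hu.1, one_mul]
  have hzo := inv_of_mul_self hz2 hz1
  exact hne (h.uniq hzo (h.inv_mem_of_ac hzo (h.mem_ac hu hzu))
    (h.inv_mem_of_ac hzo (h.mem_ac hv hzv)))

/-- Two involutions of different Sylow subgroups are interchanged by an involution between them. -/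
theorem exists_swap {P Q : Sylow 2 G} {u v : G} (hu : u ∈ invs P) (hv : v ∈ invs Q) (hne : P ≠ Q) :
    ∃ w, w ∈ W P Q ∧ w * u * w = v ∧ ∀ K : Subgroup G, u ∈ K → v ∈ K → w ∈ K := by
  obtain ⟨k, hk⟩ := h.odd_prod hu hv hne
  set x := u * v with hx
  have hxk : x ^ (2 * k + 1) = 1 := by rw [← hk, pow_orderOf_eq_one]
  have huv : u * x * u = x⁻¹ := by
    rw [hx, mul_inv_rev, inv_eq_self hu.1, inv_eq_self hv.1, ← mul_assoc u u, inv_mul_self hu.1,
      one_mul]
  have hc := conj_pow_inv hu.1 huv k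
  set w := x ^ k * u with hw
  have hw2 : w * w = 1 := by
    rw [hw, show x ^ k * u * (x ^ k * u) = x ^ k * (u * x ^ k * u) by group, hc, mul_inv_cancel]
  have hwu : w * u * w = v := by
    rw [hw, show x ^ k * u * u * (x ^ k * u) = x ^ k * (u * u) * (x ^ k * u) by group,
      inv_mul_self hu.1, mul_one, ← mul_assoc, pow_odd_eq hxk, hx, mul_inv_rev, inv_eq_self hu.1,
      inv_eq_self hv.1, mul_assoc, inv_mul_self hu.1, mul_one]
  have hw1 : w ≠ 1 := by
    intro e
    rw [e, one_mul, mul_one] at hwu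
    exact hne (h.uniq hu.1 hu.2 (hwu ▸ hv.2))
  refine ⟨w, ⟨inv_of_mul_self hw2 hw1, ?_⟩, hwu, fun K ha hb => ?_⟩
  · refine h.uniq hv.1 ?_ hv.2
    rw [← hwu]
    have := (mem_smul_iff (g := w)).mpr hu.2
    rwa [inv_eq_self (inv_of_mul_self hw2 hw1)] at this
  · exact K.mul_mem (K.pow_mem (K.mul_mem ha hb) k) ha

theorem exists_ne (P : Sylow 2 G) : ∃ Q : Sylow 2 G, Q ≠ P := by
  by_contra hc
  push Not at hc
  apply h.nonnormal P
  refine Subgroup.normalizer_eq_top_iff.mp (eq_top_iff.mpr fun g _ => ?_)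
  exact Sylow.smul_eq_iff_mem_normalizer.mp (hc (g • P))

/-- Involutions of a subgroup meeting two Sylow subgroups are conjugate inside it. -/
theorem conj_in (K : Subgroup G) {u v x : G} {P Q : Sylow 2 G} (hu : u ∈ invs P) (hx : x ∈ invs Q)
    (hne : P ≠ Q) (huK : u ∈ K) (hxK : x ∈ K) (hv : orderOf v = 2) (hvK : v ∈ K) :
    ∃ k ∈ K, k * u * k⁻¹ = v := by
  obtain ⟨R, hR⟩ := exists_sylow hv
  have step : ∀ {A B : Sylow 2 G} {a b : G}, a ∈ invs A → b ∈ invs B → A ≠ B → a ∈ K → b ∈ K →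
      ∃ k ∈ K, k * a * k⁻¹ = b := by
    intro A B a b ha hb hAB haK hbK
    obtain ⟨w, hw, hwa, hwK⟩ := h.exists_swap ha hb hAB
    exact ⟨w, hwK K haK hbK, by rw [inv_eq_self hw.1]; exact hwa⟩
  by_cases hRP : P = R
  · obtain ⟨k1, hk1, e1⟩ := step hu hx hne huK hxK
    obtain ⟨k2, hk2, e2⟩ := step hx ⟨hv, hR⟩ (fun e => hne (hRP.trans e.symm)) hxK hvK
    exact ⟨k2 * k1, K.mul_mem hk2 hk1, by rw [← e2, ← e1]; group⟩
  · exact step hu ⟨hv, hR⟩ hRP huK hvK

omit h in
theorem invs_smul (g : G) (P : Sylow 2 G) : Nat.card (invs (g • P)) = Nat.card (invs P) := by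
  refine (Nat.card_congr (Equiv.subtypeEquiv (MulAut.conj g).toEquiv fun v => ?_)).symm
  simp only [invs, Set.mem_setOf_eq, MulEquiv.toEquiv_eq_coe, EquivLike.coe_coe, MulEquiv.orderOf_eq]
  rw [MulAut.conj_apply, mem_smul_iff]

omit h in
theorem invs_card (P Q : Sylow 2 G) : Nat.card (invs P) = Nat.card (invs Q) := by
  obtain ⟨g, rfl⟩ := MulAction.exists_smul_eq G P Q
  exact (invs_smul g P).symm

/-- The subgroup of elements of order at most two of a Sylow subgroup. -/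
def omega (P : Sylow 2 G) : Subgroup G where
  carrier := {x | x ∈ (P : Subgroup G) ∧ x * x = 1}
  one_mem' := ⟨one_mem _, one_mul 1⟩
  mul_mem' := fun {a b} ha hb => ⟨mul_mem ha.1 hb.1, by
    rw [mul_assoc, ← mul_assoc b, ((h.sylow_comm hb.1 ha.1)).eq, mul_assoc, hb.2, mul_one, ha.2]⟩
  inv_mem' := fun {a} ha => ⟨inv_mem ha.1, by rw [← mul_inv_rev, ha.2, inv_one]⟩

theorem card_omega (P : Sylow 2 G) : Nat.card (h.omega P) = Nat.card (invs P) + 1 := by
  classical
  have e : ((h.omega P) : Set G) = insert 1 (invs P) := by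
    ext x
    constructor
    · intro hx
      by_cases h1 : x = 1
      · exact Or.inl h1
      · exact Or.inr ⟨inv_of_mul_self hx.2 h1, hx.1⟩
    · rintro (rfl | hx)
      · exact one_mem _
      · exact ⟨hx.2, inv_mul_self hx.1⟩
  rw [← SetLike.coe_sort_coe, e, Nat.card_coe_set_eq, Nat.card_coe_set_eq,
    Set.ncard_insert_of_notMem (fun h1 => inv_ne_one h1.1 rfl)]

theorem succ_invs_dvd (P : Sylow 2 G) : Nat.card (invs P) + 1 ∣ Nat.card (AC P) := by
  rw [← h.card_omega P]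
  exact Subgroup.card_dvd_of_le fun x hx => h.sylow_le_ac P hx.1

theorem invs_eq_two_pow (P : Sylow 2 G) : ∃ k, 0 < k ∧ Nat.card (invs P) + 1 = 2 ^ k := by
  rw [← h.card_omega P]
  obtain ⟨k, hk⟩ := (P.isPGroup'.to_le (H := h.omega P) fun x hx => hx.1).exists_card_eq
  refine ⟨k, ?_, hk⟩
  rcases Nat.eq_zero_or_pos k with rfl | hk'
  · obtain ⟨v, hv⟩ := h.exists_inv P
    have : Nonempty (invs P) := ⟨⟨v, hv⟩⟩
    have := Nat.card_pos (α := invs P)
    rw [h.card_omega P] at hk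
    omega
  · exact hk'

theorem invs_odd (P : Sylow 2 G) : Odd (Nat.card (invs P)) := by
  obtain ⟨k, hk, e⟩ := h.invs_eq_two_pow P
  have : 2 ∣ 2 ^ k := dvd_pow_self 2 hk.ne'
  rw [Nat.odd_iff]
  omega

theorem card_W_ge {P Q : Sylow 2 G} (hne : P ≠ Q) : Nat.card (invs P) ≤ Nat.card (W P Q) := by
  obtain ⟨u, hu⟩ := h.exists_inv P
  choose f hf hfu _ using fun v : invs Q => h.exists_swap hu v.2 hne
  rw [invs_card P Q]
  refine Nat.card_le_card_of_injective (fun v => (⟨f v, hf v⟩ : W P Q)) fun a b e => ?_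
  have e' : f a = f b := congrArg Subtype.val e
  exact Subtype.ext (by rw [← hfu a, ← hfu b, e'])

theorem W_nonempty {P Q : Sylow 2 G} (hne : P ≠ Q) : ∃ w, w ∈ W P Q := by
  obtain ⟨u, hu⟩ := h.exists_inv P
  obtain ⟨v, hv⟩ := h.exists_inv Q
  obtain ⟨w, hw, -, -⟩ := h.exists_swap hu hv hne
  exact ⟨w, hw⟩

omit h in
theorem W_symm {P Q : Sylow 2 G} {w : G} (hw : w ∈ W P Q) : w ∈ W Q P :=
  ⟨hw.1, by rw [← hw.2, smul_smul, inv_mul_self hw.1, one_smul]⟩

theorem W_not_mem {P Q R : Sylow 2 G} {w : G} (hne : P ≠ Q) (hw : w ∈ W P Q)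
    (hR : w ∈ (R : Subgroup G)) : R ≠ P := by
  rintro rfl
  have : w • R = R :=
    Sylow.smul_eq_iff_mem_normalizer.mpr (Subgroup.le_normalizer hR)
  exact hne (this.symm.trans hw.2)

theorem D_no_inv {P Q : Sylow 2 G} (hne : P ≠ Q) : ∀ x ∈ D P Q, orderOf x ≠ 2 := fun _ hx ho =>
  hne (h.uniq ho (h.inv_mem_of_fix ho hx.1) (h.inv_mem_of_fix ho hx.2))

theorem E_no_inv {P Q : Sylow 2 G} (hne : P ≠ Q) : ∀ x ∈ E P Q, orderOf x ≠ 2 := fun x hx ho =>
  h.D_no_inv hne x ⟨ac_le_stab P hx.1, hx.2⟩ ho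

theorem two_le_invs (P : Sylow 2 G) : ∃ u v, u ∈ invs P ∧ v ∈ invs P ∧ u ≠ v := by
  by_contra hc
  push Not at hc
  apply h.noncyclic P
  refine OddLocal.isCyclic_of_uniqueOrderP (p := 2) (Nat.card P) P.isPGroup' ?_
    (Or.inr fun a b => Subtype.ext (h.sylow_comm a.2 b.2)) le_rfl
  intro a b ha hb ha1
  by_cases hb1 : b = 1
  · exact hb1 ▸ one_mem _
  rw [Subtype.ext (hc (a : G) (b : G) ⟨by rw [Subgroup.orderOf_coe]; exact orderOf_eq_prime ha ha1, a.2⟩
    ⟨by rw [Subgroup.orderOf_coe]; exact orderOf_eq_prime hb hb1, b.2⟩)]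
  exact mem_zpowers b

theorem three_le_invs (P : Sylow 2 G) : 3 ≤ Nat.card (invs P) := by
  obtain ⟨u, v, hu, hv, hne⟩ := h.two_le_invs P
  have hlt : 1 < (invs P).ncard := (Set.one_lt_ncard (Set.toFinite _)).mpr ⟨u, hu, v, hv, hne⟩
  obtain ⟨k, hk⟩ := h.invs_odd P
  rw [Nat.card_coe_set_eq] at hk ⊢
  omega

/-- The orbit formula for the stabilizer of a point on its involutions. -/
theorem card_stab (P : Sylow 2 G) :
    Nat.card (stabilizer G P) = Nat.card (invs P) * Nat.card (AC P) := by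
  obtain ⟨v, hv⟩ := h.exists_inv P
  obtain ⟨Q, hQ⟩ := h.exists_ne P
  obtain ⟨x, hx⟩ := h.exists_inv Q
  choose k _ hk using fun w : invs P =>
    h.conj_in ⊤ hv hx hQ.symm (mem_top v) (mem_top x) w.2.1 (mem_top _)
  have hks : ∀ w, k w ∈ stabilizer G P := fun w =>
    h.uniq w.2.1 (by rw [← hk w]; exact mem_smul_iff.mpr hv.2) w.2.2
  let f : stabilizer G P → invs P := fun g =>
    ⟨g.1 * v * g.1⁻¹, inv_conj hv.1 _, by
      have := (mem_smul_iff (g := g.1)).mpr hv.2
      rwa [show g.1 • P = P from g.2] at this⟩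
  have hfib : ∀ g : stabilizer G P, (k (f g))⁻¹ * g.1 ∈ AC P := by
    intro g
    refine h.mem_ac hv ?_
    have e := hk (f g)
    calc (k (f g))⁻¹ * g.1 * v = (k (f g))⁻¹ * (g.1 * v * g.1⁻¹) * g.1 := by group
      _ = (k (f g))⁻¹ * (k (f g) * v * (k (f g))⁻¹) * g.1 := by rw [e]
      _ = v * ((k (f g))⁻¹ * g.1) := by group
  rw [← Nat.card_prod]
  refine Nat.card_eq_of_bijective (fun g => (f g, (⟨_, hfib g⟩ : AC P))) ⟨fun a b e => ?_, ?_⟩
  · obtain ⟨e1, e2⟩ := Prod.mk.inj e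
    have e3 : (k (f a))⁻¹ * a.1 = (k (f b))⁻¹ * b.1 := congrArg Subtype.val e2
    rw [e1] at e3
    exact Subtype.ext (mul_left_cancel e3)
  · rintro ⟨w, c⟩
    refine ⟨⟨k w * c.1, mul_mem (hks w) (ac_le_stab P c.2)⟩, ?_⟩
    have e : f ⟨k w * c.1, mul_mem (hks w) (ac_le_stab P c.2)⟩ = w := Subtype.ext (by
      change k w * c.1 * v * (k w * c.1)⁻¹ = w.1
      rw [mul_assoc (k w), (ac_commute hv c.2).eq, ← hk w]
      group)
    refine Prod.ext e (Subtype.ext ?_)
    change (k (f _))⁻¹ * (k w * c.1) = c.1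
    rw [e, inv_mul_cancel_left]

end Hyp

end Cfsg.Agent.OddChar.InvCentAb
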