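import Cfsg.Agent.OddChar.InvCentAb.Reduce
import Cfsg.Agent.S0806

/-! Centralizers of two Sylow two-subgroups meet trivially in the reduced case. -/

set_option autoImplicit false
set_option linter.unusedSectionVars false
set_option linter.style.haveILetI false

namespace Cfsg.Agent.OddChar.InvCentAb

open Subgroup MulAction Matrix
open scoped Pointwise

theorem card_odd_SL_le {F : Type} [Field F] [Fintype F] (h2 : (2 : F) = 0) (h4 : 4 ≤ Fintype.card F)
    (H : Subgroup (SpecialLinearGroup (Fin 2) F)) (hH : Odd (Nat.card H)) :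
    Nat.card H ≤ Fintype.card F * (Fintype.card F - 1) := by
  obtain ⟨f, hf0, hf⟩ := exists_card_eq_two_pow h2
  let e : ProjectiveSpecialLinearGroup (Fin 2) F ≃* SpecialLinearGroup (Fin 2) F :=
    (QuotientGroup.quotientMulEquivOfEq (Linear.center_SL2_eq_bot h2)).trans QuotientGroup.quotientBot
  have hq : Fintype.card F ∉ ({2, 3, 5, 7, 9, 11} : Finset ℕ) := by
    have he : Fintype.card F % 2 = 0 := by
      rw [hf]
      exact Nat.mod_eq_zero_of_dvd (dvd_pow_self 2 hf0.ne') |>.trans rfl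
    simp only [Finset.mem_insert, Finset.mem_singleton]
    omega
  set H' := H.map e.symm.toMonoidHom with hH'
  have hc : Nat.card H' = Nat.card H :=
    Subgroup.card_map_of_injective e.symm.injective
  have hne : H' ≠ ⊤ := by
    intro ht
    rw [ht, Subgroup.card_top, Nat.card_congr e.toEquiv, Linear.card_SL_two] at hc
    rw [← hc, hf] at hH
    exact Nat.not_even_iff_odd.mpr hH
      (even_iff_two_dvd.mpr (dvd_mul_of_dvd_left (dvd_pow_self 2 hf0.ne') _))
  have hi := (S0806.result rfl hq).1 H' hne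
  have hm := H'.card_mul_index
  rw [hc, Nat.card_congr e.toEquiv, Linear.card_SL_two] at hm
  have hmul : Nat.card H * (Fintype.card F + 1) ≤
      Fintype.card F * (Fintype.card F - 1) * (Fintype.card F + 1) := by
    calc Nat.card H * (Fintype.card F + 1) ≤ Nat.card H * H'.index := Nat.mul_le_mul_left _ hi
      _ = _ := by
        rw [hm, show Fintype.card F ^ 2 - 1 = (Fintype.card F + 1) * (Fintype.card F - 1) by
          rw [← Nat.sq_sub_sq, one_pow]]
        ring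
  exact Nat.le_of_mul_le_mul_right hmul (Nat.succ_pos _)

variable {G : Type*} [Group G] [Finite G]

/-- The consequences of a model, stated in the ambient group. -/
structure Local (K : Subgroup G) where
  q : ℕ
  B : Subgroup G
  four : 4 ≤ q
  le : B ≤ K
  central : ∀ b ∈ B, ∀ c ∈ K, Commute b c
  oddB : Odd (Nat.card B)
  sq : ∀ c ∈ K, ∀ v ∈ K, orderOf v = 2 → Commute c v → c * c ∈ B
  card : Nat.card K = q * (q ^ 2 - 1) * Nat.card B
  sylow : ∀ P : Sylow 2 G, (P : Subgroup G) ≤ K → Nat.card P = q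
  bound : ∀ D' : Subgroup G, D' ≤ K → Odd (Nat.card D') →
    Nat.card D' ≤ q * (q - 1) * Nat.card (D' ⊓ B : Subgroup G)
  central_mem : ∀ c ∈ K, (∀ x ∈ K, Commute c x) → c ∈ B

theorem local_of_model {K : Subgroup G} (hK : Hyp K) (M : Model K) : Nonempty (Local K) := by
  have hB : ∀ x : K, (x : G) ∈ M.ψ.ker.map K.subtype ↔ x ∈ M.ψ.ker := fun x =>
    Subgroup.mem_map_iff_mem (Subgroup.subtype_injective K)
  have hcard : Nat.card (M.ψ.ker.map K.subtype) = Nat.card M.ψ.ker :=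
    Subgroup.card_map_of_injective (Subgroup.subtype_injective K)
  refine ⟨⟨Fintype.card M.F, M.ψ.ker.map K.subtype, M.four_le hK, ?_, ?_, hcard ▸ M.odd, ?_, ?_, ?_, ?_,
    ?_⟩⟩
  · rintro _ ⟨x, -, rfl⟩; exact x.2
  · rintro _ ⟨x, hx, rfl⟩ c hc
    exact (congrArg Subtype.val (Subgroup.mem_center_iff.mp (M.central hx) ⟨c, hc⟩)).symm
  · intro c hc v hv hvo hcv
    exact (hB (⟨c, hc⟩ * ⟨c, hc⟩)).mpr (M.sq_mem_ker (v := ⟨v, hv⟩)
      (by rw [← Subgroup.orderOf_coe]; exact hvo) (Subtype.ext hcv.eq))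
  · rw [hcard, M.card_eq]
  · intro P hP
    rw [← M.card_sylow (P.subtype hP)]
    exact (Nat.card_congr (Subgroup.subgroupOfEquivOfLe hP).toEquiv).symm
  · intro D' hD hodd
    set H := (D'.subgroupOf K).map M.ψ with hH
    have hdvd : Nat.card H ∣ Nat.card (D'.subgroupOf K) := Subgroup.card_map_dvd _ _
    have hDK : Nat.card (D'.subgroupOf K) = Nat.card D' :=
      Nat.card_congr (Subgroup.subgroupOfEquivOfLe hD).toEquiv
    have hle := card_odd_SL_le M.h2 (M.four_le hK) H (hodd.of_dvd_nat (hDK ▸ hdvd))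
    let f : D'.subgroupOf K →* Matrix.SpecialLinearGroup (Fin 2) M.F := M.ψ.comp (Subgroup.subtype _)
    have hr : f.range = H := by
      rw [hH, MonoidHom.range_comp, Subgroup.range_subtype]
    have hker : Nat.card f.ker = Nat.card (D' ⊓ M.ψ.ker.map K.subtype : Subgroup G) := by
      refine Nat.card_eq_of_bijective (fun x => (⟨((x : D'.subgroupOf K) : K), x.1.2,
        (hB _).mpr x.2⟩ : (D' ⊓ M.ψ.ker.map K.subtype : Subgroup G))) ⟨fun a b e => ?_, ?_⟩
      · have := congrArg Subtype.val e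
        exact Subtype.ext (Subtype.ext (Subtype.ext this))
      · rintro ⟨y, hy1, hy2⟩
        exact ⟨⟨⟨⟨y, hD hy1⟩, hy1⟩, (hB ⟨y, hD hy1⟩).mp hy2⟩, rfl⟩
    rw [← hDK, Subgroup.card_eq_card_quotient_mul_card_subgroup f.ker,
      Nat.card_congr (QuotientGroup.quotientKerEquivRange f).toEquiv, hr, hker]
    exact Nat.mul_le_mul_right _ hle
  · intro c hc hcc
    refine (hB ⟨c, hc⟩).mpr ?_
    have : M.ψ ⟨c, hc⟩ ∈ Subgroup.center (Matrix.SpecialLinearGroup (Fin 2) M.F) := by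
      rw [Subgroup.mem_center_iff]
      intro s
      obtain ⟨x, rfl⟩ := M.surj s
      rw [← map_mul, ← map_mul]
      exact congrArg _ (Subtype.ext (hcc x.1 x.2).symm.eq)
    rw [Linear.center_SL2_eq_bot M.h2, Subgroup.mem_bot] at this
    exact this

namespace Hyp

variable (h : Hyp G)

include h

theorem sub_hyp (K : Subgroup G) {P Q : Sylow 2 G} (hP : (P : Subgroup G) ≤ K)
    (hQ : (Q : Subgroup G) ≤ K) (hne : P ≠ Q) : Hyp K := by
  haveI : Fact (Nat.Prime 2) := ⟨Nat.prime_two⟩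
  refine ⟨fun t ht a b ha hb => ?_, fun R hR => ?_, fun R hR => ?_⟩
  · exact Subtype.ext (h.comm (t : G) (by rw [Subgroup.orderOf_coe]; exact ht) (a : G) (b : G)
      (congrArg Subtype.val ha.eq) (congrArg Subtype.val hb.eq)).eq
  · apply h.noncyclic P
    haveI : IsCyclic R := hR
    haveI : IsCyclic ((P : Subgroup G).subgroupOf K) :=
      isCyclic_of_surjective (R.equiv (P.subtype hP)).toMonoidHom (R.equiv (P.subtype hP)).surjective
    exact isCyclic_of_surjective (Subgroup.subgroupOfEquivOfLe hP).toMonoidHom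
      (Subgroup.subgroupOfEquivOfLe hP).surjective
  · haveI := Sylow.unique_of_normal R hR
    exact hne (Sylow.subtype_injective (hP := hP) (hQ := hQ) (Subsingleton.elim _ _))

theorem sylow_le_of_inv {K : Subgroup G} {a b : Sylow 2 G} (ha : (a : Subgroup G) ≤ K)
    (hb : (b : Subgroup G) ≤ K) (hne : a ≠ b) {x : G} {P : Sylow 2 G} (hx : x ∈ invs P) (hxK : x ∈ K) :
    ∃ k ∈ K, k • a = P := by
  obtain ⟨u, hu⟩ := h.exists_inv a
  obtain ⟨v, hv⟩ := h.exists_inv b
  obtain ⟨k, hk, e⟩ := h.conj_in K hu hv hne (ha hu.2) (hb hv.2) hx.1 hxK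
  exact ⟨k, hk, h.uniq hx.1 (e ▸ mem_smul_iff.mpr hu.2) hx.2⟩

/-- A centralizer containing two Sylow subgroups, with its consequences. -/
theorem line_facts {K : Subgroup G} (L : Local K) {a b : Sylow 2 G} (haK : AC a ≤ K)
    (hb : (b : Subgroup G) ≤ K) (hne : a ≠ b) :
    L.B ≤ AC a ∧ Nat.card (AC a) = L.q * Nat.card L.B ∧ Nat.card (invs a) = L.q - 1 ∧
      stabilizer G a ≤ K ∧ Nat.card {P : Sylow 2 G // (P : Subgroup G) ≤ K} = L.q + 1 := by
  have ha : (a : Subgroup G) ≤ K := (h.sylow_le_ac a).trans haK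
  have hB : L.B ≤ AC a := fun x hx => Subgroup.mem_centralizer_iff.mpr fun y hy =>
    (L.central x hx y (ha hy)).symm.eq
  obtain ⟨v, hv⟩ := h.exists_inv a
  have hsq : ∀ c ∈ AC a, c * c ∈ L.B := fun c hc =>
    L.sq c (haK hc) v (ha hv.2) hv.1 (ac_commute hv hc)
  have hcard : Nat.card (AC a) = L.q * Nat.card L.B := by
    rw [← L.sylow a ha, ← Nat.card_prod]
    symm
    refine Nat.card_eq_of_bijective (fun x => (⟨x.1.1 * x.2.1,
      mul_mem (h.sylow_le_ac a x.1.2) (hB x.2.2)⟩ : AC a)) ⟨?_, ?_⟩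
    · rintro ⟨p1, b1⟩ ⟨p2, b2⟩ e
      have e' : (p1 : G) * b1 = p2 * b2 := congrArg Subtype.val e
      have hmem : (p2 : G)⁻¹ * p1 ∈ L.B := by
        rw [show (p2 : G)⁻¹ * p1 = b2 * (b1 : G)⁻¹ by
          rw [eq_mul_inv_iff_mul_eq, mul_assoc, inv_mul_eq_iff_eq_mul]; exact e']
        exact mul_mem b2.2 (inv_mem b1.2)
      have h1 := inv_mul_eq_one.mp (eq_one_of_mem_odd (P := a) L.oddB (mul_mem (inv_mem p2.2) p1.2) hmem)
      rw [h1] at e'
      exact Prod.ext (Subtype.ext h1.symm) (Subtype.ext (mul_left_cancel e'))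
    · rintro ⟨c, hc⟩
      set j := Nat.card L.B with hj
      have hcj : (c * c) ^ j = 1 :=
        congrArg Subtype.val (pow_card_eq_one' (x := (⟨c * c, hsq c hc⟩ : L.B)))
      have hpj : c ^ j ∈ (a : Subgroup G) := by
        by_cases h1 : c ^ j = 1
        · rw [h1]; exact one_mem _
        · refine h.inv_mem_of_ac (inv_of_mul_self ?_ h1) (Subgroup.pow_mem _ hc _)
          rw [← (Commute.refl c).mul_pow]; exact hcj
      obtain ⟨i, hi⟩ := L.oddB
      refine ⟨(⟨c ^ j, hpj⟩, ⟨c ^ (j + 1), ?_⟩), Subtype.ext ?_⟩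
      · rw [hj, hi, show 2 * i + 1 + 1 = 2 * (i + 1) by omega, pow_mul, pow_two]
        exact Subgroup.pow_mem _ (hsq c hc) _
      · change c ^ j * c ^ (j + 1) = c
        rw [← pow_add, ← add_assoc, pow_succ, ← two_mul, pow_mul, pow_two, hcj, one_mul]
  have hinv : Nat.card (invs a) = L.q - 1 := by
    have : h.omega a = (a : Subgroup G) := le_antisymm (fun x hx => hx.1) fun x hx =>
      ⟨hx, eq_one_of_mem_odd (P := a) L.oddB (mul_mem hx hx) (hsq x (h.sylow_le_ac a hx))⟩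
    have e := h.card_omega a
    rw [this, L.sylow a ha] at e
    omega
  have hst : stabilizer G a ≤ K := by
    intro g hg
    have hv' : g * v * g⁻¹ ∈ (a : Subgroup G) := by
      have := (mem_smul_iff (g := g)).mpr hv.2
      rwa [show g • a = a from hg] at this
    obtain ⟨x, hx⟩ := h.exists_inv b
    obtain ⟨k, hk, e⟩ := h.conj_in K hv hx hne (ha hv.2) (hb hx.2) (inv_conj hv.1 g) (ha hv')
    have hc : Commute (k⁻¹ * g) v := by
      calc k⁻¹ * g * v = k⁻¹ * (g * v * g⁻¹) * g := by group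
        _ = v * (k⁻¹ * g) := by rw [← e]; group
    have := K.mul_mem hk (haK (h.mem_ac hv hc))
    rwa [mul_inv_cancel_left] at this
  refine ⟨hB, hcard, hinv, hst, ?_⟩
  choose k hk hka using fun P : {P : Sylow 2 G // (P : Subgroup G) ≤ K} =>
    h.sylow_le_of_inv ha hb hne (h.exists_inv P.1).choose_spec (P.2 (h.exists_inv P.1).choose_spec.2)
  have hle : ∀ x : K, ((x.1 • a : Sylow 2 G) : Subgroup G) ≤ K := by
    intro x y hy
    have e : y = x.1 * (x.1⁻¹ * y * x.1) * x.1⁻¹ := by group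
    rw [e] at hy ⊢
    exact mul_mem (mul_mem x.2 (ha (mem_smul_iff.mp hy))) (inv_mem x.2)
  have key : Nat.card K =
      Nat.card {P : Sylow 2 G // (P : Subgroup G) ≤ K} * Nat.card (stabilizer G a) := by
    rw [← Nat.card_prod]
    refine Nat.card_eq_of_bijective (fun x : K => ((⟨x.1 • a, hle x⟩ :
      {P : Sylow 2 G // (P : Subgroup G) ≤ K}), (⟨(k ⟨x.1 • a, hle x⟩)⁻¹ * x.1, ?_⟩ : stabilizer G a)))
      ⟨fun x y e => ?_, ?_⟩
    · rw [MulAction.mem_stabilizer_iff, mul_smul, inv_smul_eq_iff, hka]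
    · obtain ⟨e1, e2⟩ := Prod.mk.inj e
      have e3 : (k ⟨x.1 • a, hle x⟩)⁻¹ * x.1 = (k ⟨y.1 • a, hle y⟩)⁻¹ * y.1 := congrArg Subtype.val e2
      rw [e1] at e3
      exact Subtype.ext (mul_left_cancel e3)
    · rintro ⟨P, s⟩
      have e : (⟨k P * s.1, mul_mem (hk P) (hst s.2)⟩ : K).1 • a = P.1 := by
        change (k P * s.1) • a = P.1
        rw [mul_smul, show s.1 • a = a from s.2, hka]
      refine ⟨⟨k P * s.1, mul_mem (hk P) (hst s.2)⟩, ?_⟩
      have e' : (⟨_, hle ⟨k P * s.1, mul_mem (hk P) (hst s.2)⟩⟩ :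
          {P : Sylow 2 G // (P : Subgroup G) ≤ K}) = P := Subtype.ext e
      refine Prod.ext e' (Subtype.ext ?_)
      change (k _)⁻¹ * (k P * s.1) = s.1
      rw [e', inv_mul_cancel_left]
  rw [L.card, h.card_stab, hinv, hcard] at key
  have hq := L.four
  have hp : 0 < L.q * (L.q - 1) * Nat.card L.B :=
    Nat.mul_pos (Nat.mul_pos (by omega) (by omega)) Nat.card_pos
  apply Nat.eq_of_mul_eq_mul_right hp
  calc _ = _ * ((L.q - 1) * (L.q * Nat.card L.B)) := by ring
    _ = L.q * (L.q ^ 2 - 1) * Nat.card L.B := key.symm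
    _ = _ := by
      rw [show L.q ^ 2 - 1 = (L.q + 1) * (L.q - 1) by rw [← Nat.sq_sub_sq, one_pow]]
      ring

variable (hO : ∀ N : Subgroup G, N.Normal → Odd (Nat.card N) → N = ⊥)
  (IH : ∀ K : Subgroup G, K ≠ ⊤ → Hyp K → Nonempty (Model K))

include hO IH

/-- The centralizers of two Sylow two-subgroups meet trivially. -/
theorem ac_disjoint {a b : Sylow 2 G} (hne : a ≠ b) {e : G} (hea : e ∈ AC a) (heb : e ∈ AC b) :
    e = 1 := by
  by_contra he1
  have hsy : ∀ {P : Sylow 2 G} {x : G}, x ∈ AC P → AC P ≤ Subgroup.centralizer {x} := fun hx c hc =>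
    Subgroup.mem_centralizer_singleton_iff.mpr (h.ac_comm hc hx).eq
  have mkLocal : ∀ x, x ≠ 1 → x ∈ AC a → x ∈ AC b →
      Subgroup.centralizer ({x} : Set G) ≠ ⊤ ∧ Nonempty (Local (Subgroup.centralizer ({x} : Set G))) := by
    intro x hx1 hxa hxb
    have hodd : Odd (Nat.card (Subgroup.zpowers x)) := odd_card_of_no_inv fun y hy ho =>
      hne (h.uniq ho (h.inv_mem_of_ac ho ((Subgroup.zpowers_le.mpr hxa) hy))
        (h.inv_mem_of_ac ho ((Subgroup.zpowers_le.mpr hxb) hy)))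
    have hne' : Subgroup.centralizer ({x} : Set G) ≠ ⊤ := by
      intro ht
      have hc : x ∈ Subgroup.center G := Subgroup.mem_center_iff.mpr fun g =>
        Subgroup.mem_centralizer_singleton_iff.mp (ht ▸ Subgroup.mem_top g)
      have hn : (Subgroup.zpowers x).Normal := ⟨fun y hy g => by
        rw [Subgroup.mem_center_iff.mp ((Subgroup.zpowers_le.mpr hc) hy) g, mul_inv_cancel_right]
        exact hy⟩
      exact hx1 (Subgroup.zpowers_eq_bot.mp (hO _ hn hodd))
    have hK := h.sub_hyp _ ((h.sylow_le_ac a).trans (hsy hxa)) ((h.sylow_le_ac b).trans (hsy hxb)) hne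
    obtain ⟨M⟩ := IH _ hne' hK
    exact ⟨hne', local_of_model hK M⟩
  obtain ⟨hMne, ⟨L⟩⟩ := mkLocal e he1 hea heb
  set M := Subgroup.centralizer ({e} : Set G) with hM
  have haM : AC a ≤ M := hsy hea
  have hbM : (b : Subgroup G) ≤ M := (h.sylow_le_ac b).trans (hsy heb)
  obtain ⟨hBa, hcardA, hr, hst, hcnt⟩ := h.line_facts L haM hbM hne
  have haM' : (a : Subgroup G) ≤ M := (h.sylow_le_ac a).trans haM
  have hq := L.four
  have heB : e ∈ L.B := L.central_mem e (haM hea) fun x hx =>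
    (Subgroup.mem_centralizer_singleton_iff.mp hx).symm
  have hcomB : ∀ {P : Sylow 2 G}, (P : Subgroup G) ≤ M → L.B ≤ AC P := fun hP x hx =>
    Subgroup.mem_centralizer_iff.mpr fun y hy => (L.central x hx y (hP hy)).symm.eq
  have hCB : ∀ x ∈ L.B, x ≠ 1 → Subgroup.centralizer ({x} : Set G) = M := by
    intro x hx hx1
    obtain ⟨-, ⟨L'⟩⟩ := mkLocal x hx1 (hBa hx) (hcomB hbM hx)
    have haK : AC a ≤ Subgroup.centralizer ({x} : Set G) := hsy (hBa hx)
    obtain ⟨-, hcardA', -, -, -⟩ := h.line_facts L' haK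
      ((h.sylow_le_ac b).trans (hsy (hcomB hbM hx))) hne
    have hq' : L'.q = L.q := by
      rw [← L'.sylow a ((h.sylow_le_ac a).trans haK), L.sylow a haM']
    rw [hcardA, hq'] at hcardA'
    have hBB := Nat.eq_of_mul_eq_mul_left (by omega) hcardA'
    refine (Subgroup.eq_of_le_of_card_ge (fun c hc => ?_) ?_).symm
    · exact Subgroup.mem_centralizer_singleton_iff.mpr (L.central x hx c hc).symm.eq
    · rw [L'.card, L.card, hq', hBB]
  have hinM : ∀ {P : Sylow 2 G} {x : G}, x ∈ invs P → x ∈ M → (P : Subgroup G) ≤ M := by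
    intro P x hx hxM y hy
    obtain ⟨k, hk, rfl⟩ := h.sylow_le_of_inv haM' hbM hne hx hxM
    rw [show y = k * (k⁻¹ * y * k) * k⁻¹ by group] at hy ⊢
    exact mul_mem (mul_mem hk (haM' (mem_smul_iff.mp hy))) (inv_mem hk)
  obtain ⟨Q, hQ⟩ : ∃ Q : Sylow 2 G, ¬ (Q : Subgroup G) ≤ M := by
    by_contra hc
    push Not at hc
    refine hMne (h.eq_top_of M (fun v hv => ?_) a haM)
    obtain ⟨P, hP⟩ := exists_sylow hv
    exact hc P hP
  obtain ⟨g, hg⟩ := MulAction.exists_smul_eq G a Q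
  have hM2Q : ∀ y ∈ (Q : Subgroup G), g⁻¹ * y * g ∈ M := by
    intro y hy
    rw [← hg, show y = g * (g⁻¹ * y * g) * g⁻¹ by group] at hy
    exact haM' (mem_smul_iff.mp hy)
  have hconj : ∀ y : G, y ∈ L.B → ∀ x : G, g⁻¹ * x * g ∈ M → Commute (g * y * g⁻¹) x := by
    intro y hy x hx
    calc g * y * g⁻¹ * x = g * (y * (g⁻¹ * x * g)) * g⁻¹ := by group
      _ = g * ((g⁻¹ * x * g) * y) * g⁻¹ := by rw [(L.central y hy _ hx).eq]
      _ = x * (g * y * g⁻¹) := by group
  have htwin : ∀ y ∈ L.B, g * y * g⁻¹ ∈ L.B → y = 1 := by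
    intro y hy hy2
    by_contra hy1
    have h2 : g * y * g⁻¹ ≠ 1 := by rwa [ne_eq, conj_eq_one_iff]
    apply hQ
    intro z hz
    rw [← hCB _ hy2 h2]
    exact Subgroup.mem_centralizer_singleton_iff.mpr (hconj y hy z (hM2Q z hz)).symm.eq
  have hnoinv : ∀ x, x ∈ M → g⁻¹ * x * g ∈ M → orderOf x ≠ 2 := by
    intro x hxM hxM2 ho
    obtain ⟨P, hP⟩ := exists_sylow ho
    have hPM := hinM ⟨ho, hP⟩ hxM
    have hP' : g⁻¹ * x * g ∈ ((g⁻¹ • P : Sylow 2 G) : Subgroup G) := by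
      have := (mem_smul_iff (g := g⁻¹)).mpr hP
      rwa [inv_inv] at this
    have hP'M := hinM ⟨by simpa using inv_conj ho g⁻¹, hP'⟩ hxM2
    have he2 : g * e * g⁻¹ ∈ AC P := by
      have := ac_conj (hcomB hP'M heB) g
      rwa [smul_inv_smul] at this
    have hPA : AC P ≤ M := by
      intro c hc
      exact Subgroup.mem_centralizer_singleton_iff.mpr (h.ac_comm hc (hcomB hPM heB)).eq
    have hsq := L.sq _ (hPA he2) x hxM ho (ac_commute ⟨ho, hP⟩ he2)
    obtain ⟨i, hi⟩ := L.oddB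
    have hpw : (g * e * g⁻¹) ^ Nat.card L.B = 1 := by
      rw [conj_pow, show e ^ Nat.card L.B = 1 from
        congrArg Subtype.val (pow_card_eq_one' (x := (⟨e, heB⟩ : L.B)))]
      group
    refine he1 (htwin e heB ?_)
    have : g * e * g⁻¹ = ((g * e * g⁻¹) * (g * e * g⁻¹)) ^ (i + 1) := by
      rw [← pow_two, ← pow_mul, show 2 * (i + 1) = Nat.card L.B + 1 by omega, pow_succ, hpw, one_mul]
    rw [this]
    exact Subgroup.pow_mem _ hsq _
  set M2 := M.map (MulAut.conj g).toMonoidHom with hM2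
  have hmem2 : ∀ x, x ∈ M2 ↔ g⁻¹ * x * g ∈ M := by
    intro x
    rw [hM2, Subgroup.mem_map_equiv, MulAut.conj_symm_apply]
  set D' := M ⊓ M2 with hD'
  have hDodd : Odd (Nat.card D') := odd_card_of_no_inv fun x hx =>
    hnoinv x hx.1 ((hmem2 x).mp hx.2)
  set U : Set G := {u | orderOf u = 2 ∧ g⁻¹ * u ∈ M} with hU
  have hUcard : (L.q - 1) * (L.q + 1) ≤ Nat.card U := by
    classical
    haveI : Fintype {P : Sylow 2 G // (P : Subgroup G) ≤ M} := Fintype.ofFinite _
    have hne2 : ∀ R : {P : Sylow 2 G // (P : Subgroup G) ≤ M}, a ≠ g • R.1 := by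
      intro R e'
      obtain ⟨x, hx⟩ := h.exists_inv a
      refine hnoinv x (haM' hx.2) ?_ hx.1
      have hx2 := hx.2
      rw [e', show x = g * (g⁻¹ * x * g) * g⁻¹ by group] at hx2
      exact R.2 (mem_smul_iff.mp hx2)
    have hWU : ∀ R : {P : Sylow 2 G // (P : Subgroup G) ≤ M}, W a (g • R.1) ⊆ U := by
      intro R w hw
      obtain ⟨y, hy⟩ := h.exists_inv R.1
      obtain ⟨k, hk, hka⟩ := h.sylow_le_of_inv haM' hbM hne hy (R.2 hy.2)
      have hs : (g * k)⁻¹ * w ∈ stabilizer G a := by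
        rw [MulAction.mem_stabilizer_iff, mul_smul, hw.2, inv_smul_eq_iff, mul_smul, hka]
      refine ⟨hw.1, ?_⟩
      have := M.mul_mem hk (hst hs)
      rwa [show k * ((g * k)⁻¹ * w) = g⁻¹ * w by group] at this
    let F : (Σ R : {P : Sylow 2 G // (P : Subgroup G) ≤ M}, W a (g • R.1)) → U :=
      fun x => ⟨x.2.1, hWU x.1 x.2.2⟩
    have hF : Function.Injective F := by
      rintro ⟨R, w, hw⟩ ⟨R', w', hw'⟩ e'
      have e2 : w = w' := congrArg Subtype.val e'
      subst e2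
      obtain rfl : R = R' := Subtype.ext (MulAction.injective g (hw.2.symm.trans hw'.2))
      rfl
    refine le_trans ?_ (Nat.card_le_card_of_injective F hF)
    rw [Nat.card_sigma]
    calc (L.q - 1) * (L.q + 1)
        = ∑ _R : {P : Sylow 2 G // (P : Subgroup G) ≤ M}, (L.q - 1) := by
          rw [Finset.sum_const, Finset.card_univ, ← Nat.card_eq_fintype_card, hcnt, smul_eq_mul,
            Nat.mul_comm]
      _ ≤ _ := Finset.sum_le_sum fun R _ => hr ▸ h.card_W_ge (hne2 R)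
  obtain ⟨⟨u0, hu0⟩⟩ : Nonempty U := Finite.card_pos_iff.mp
    (lt_of_lt_of_le (Nat.mul_pos (by omega) (by omega)) hUcard)
  set m0 := g⁻¹ * u0 with hm0
  have hu0g : u0 = g * m0 := by rw [hm0, mul_inv_cancel_left]
  have hu0i := inv_eq_self hu0.1
  have hswap1 : ∀ x ∈ M, u0 * x * u0 ∈ M2 := by
    intro x hx
    rw [hmem2]
    have := M.mul_mem (M.mul_mem hu0.2 hx) (M.inv_mem hu0.2)
    rwa [← hm0, show m0 * x * m0⁻¹ = g⁻¹ * (u0 * x * u0⁻¹) * g by rw [hm0]; group, hu0i] at this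
  have hswap2 : ∀ x ∈ M2, u0 * x * u0 ∈ M := by
    intro x hx
    have := M.mul_mem (M.mul_mem (M.inv_mem hu0.2) ((hmem2 x).mp hx)) hu0.2
    rwa [show (g⁻¹ * u0)⁻¹ * (g⁻¹ * x * g) * (g⁻¹ * u0) = u0⁻¹ * x * u0 by group, hu0i] at this
  set I : Set G := {d | d ∈ D' ∧ u0 * d * u0 = d⁻¹} with hI
  have hUI : Nat.card U ≤ Nat.card I := by
    have hd : ∀ u : U, u0 * u.1 ∈ I := by
      rintro ⟨u, hu⟩
      have h1 : u0 * u ∈ M := by
        have := M.mul_mem (M.inv_mem hu0.2) hu.2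
        rwa [show (g⁻¹ * u0)⁻¹ * (g⁻¹ * u) = u0⁻¹ * u by group, hu0i] at this
      have h1' : u * u0 ∈ M := by
        have := M.inv_mem h1
        rwa [_root_.mul_inv_rev, hu0i, inv_eq_self hu.1] at this
      refine ⟨⟨h1, ?_⟩, ?_⟩
      · have := hswap1 _ h1'
        rwa [show u0 * (u * u0) * u0 = u0 * u * (u0 * u0) by group, inv_mul_self hu0.1, mul_one] at this
      · change u0 * (u0 * u) * u0 = (u0 * u)⁻¹
        rw [← mul_assoc u0 u0, inv_mul_self hu0.1, one_mul, _root_.mul_inv_rev, hu0i, inv_eq_self hu.1]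
    exact Nat.card_le_card_of_injective (fun u => (⟨_, hd u⟩ : I)) fun x y e' =>
      Subtype.ext (mul_left_cancel (congrArg Subtype.val e' : u0 * x.1 = u0 * y.1))
  set C := D' ⊓ Subgroup.centralizer ({u0} : Set G) with hC
  have hIC : Nat.card I * Nat.card C ≤ Nat.card D' := by
    rw [← Nat.card_prod]
    refine Nat.card_le_card_of_injective
      (fun x => (⟨x.1.1 * x.2.1, mul_mem x.1.2.1 x.2.2.1⟩ : D')) ?_
    rintro ⟨⟨d1, hd1, hd1i⟩, ⟨c1, hc1⟩⟩ ⟨⟨d2, hd2, hd2i⟩, ⟨c2, hc2⟩⟩ e'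
    have e2 : d1 * c1 = d2 * c2 := congrArg Subtype.val e'
    set c := c1 * c2⁻¹ with hcdef
    have hd2e : d2 = d1 * c := by rw [hcdef, ← mul_assoc, e2, mul_inv_cancel_right]
    have hcC : c ∈ C := mul_mem hc1 (inv_mem hc2)
    have hcu : u0 * c * u0 = c := by
      rw [← Subgroup.mem_centralizer_singleton_iff.mp hcC.2, mul_assoc, inv_mul_self hu0.1, mul_one]
    have hflip : d1 * c * d1⁻¹ = c⁻¹ := by
      have : d1⁻¹ * c = (d1 * c)⁻¹ := by
        rw [← hd2e, ← hd2i, hd2e, show u0 * (d1 * c) * u0 = u0 * d1 * (u0 * u0) * c * u0 by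
          rw [inv_mul_self hu0.1]; group, show u0 * d1 * (u0 * u0) * c * u0 =
            (u0 * d1 * u0) * (u0 * c * u0) by group, hd1i, hcu]
      rw [_root_.mul_inv_rev] at this
      calc d1 * c * d1⁻¹ = (d1 * (c⁻¹ * d1⁻¹))⁻¹ := by group
        _ = (d1 * (d1⁻¹ * c))⁻¹ := by rw [this]
        _ = c⁻¹ := by rw [mul_inv_cancel_left]
    have hc1' : c = 1 := by
      obtain ⟨i, hi⟩ := id hDodd
      have hd1p : d1 ^ (2 * i + 1) = 1 := hi ▸
        congrArg Subtype.val (pow_card_eq_one' (x := (⟨d1, hd1⟩ : D')))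
      have hflip2 : d1 ^ 2 * c * (d1 ^ 2)⁻¹ = c := by
        rw [show d1 ^ 2 * c * (d1 ^ 2)⁻¹ = d1 * (d1 * c * d1⁻¹) * d1⁻¹ by rw [pow_two]; group, hflip,
          show d1 * c⁻¹ * d1⁻¹ = (d1 * c * d1⁻¹)⁻¹ by group, hflip, inv_inv]
      have hcd : Commute (d1 ^ 2) c := by
        change d1 ^ 2 * c = c * d1 ^ 2
        exact mul_inv_eq_iff_eq_mul.mp hflip2
      have hcd1 : Commute d1 c := by
        have h3 : (d1 ^ 2) ^ (i + 1) = d1 := by
          rw [← pow_mul, show 2 * (i + 1) = 2 * i + 1 + 1 by ring, pow_succ, hd1p, one_mul]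
        exact h3 ▸ hcd.pow_left (i + 1)
      rw [hcd1.eq, mul_inv_cancel_right] at hflip
      have hc2' : c * c = 1 := by nth_rw 2 [hflip]; exact mul_inv_cancel c
      refine eq_one_of_pow_coprime (Nat.coprime_two_left.mpr hDodd) (by rw [pow_two]; exact hc2') ?_
      exact congrArg Subtype.val (pow_card_eq_one' (x := (⟨c, hcC.1⟩ : D')))
    have hcc : c1 = c2 := by
      rw [hcdef, mul_inv_eq_one] at hc1'
      exact hc1'
    subst hcc
    have := mul_right_cancel e2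
    subst this
    rfl
  have hDB : Nat.card (D' ⊓ L.B : Subgroup G) ≤ Nat.card C := by
    by_cases hbot : D' ⊓ L.B = ⊥
    · rw [hbot, Subgroup.card_bot]; exact Nat.card_pos
    · obtain ⟨x, hx, hx1⟩ := (Subgroup.bot_or_exists_ne_one _).resolve_left hbot
      have hu0B : ∀ y ∈ L.B, u0 * y * u0 = g * y * g⁻¹ := by
        intro y hy
        nth_rw 2 [← hu0i]
        rw [hu0g, show g * m0 * y * (g * m0)⁻¹ = g * (m0 * y * m0⁻¹) * g⁻¹ by group,
          ← (L.central y hy m0 hu0.2).eq, mul_inv_cancel_right]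
      have hyD : ∀ y ∈ L.B, g * y * g⁻¹ ∈ D' := by
        intro y hy
        refine ⟨?_, (hmem2 _).mpr (by
          rw [show g⁻¹ * (g * y * g⁻¹) * g = y by group]; exact L.le hy)⟩
        rw [← hCB x hx.2 hx1]
        exact Subgroup.mem_centralizer_singleton_iff.mpr (hconj y hy x ((hmem2 x).mp hx.1.2)).eq
      have hyD' : ∀ y ∈ L.B, y ∈ D' := by
        intro y hy
        refine ⟨L.le hy, ?_⟩
        have := hswap1 _ (hyD y hy).1
        rwa [← hu0B y hy, show u0 * (u0 * y * u0) * u0 = (u0 * u0) * y * (u0 * u0) by group,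
          inv_mul_self hu0.1, one_mul, mul_one] at this
      have hmemC : ∀ y ∈ L.B, y * (u0 * y * u0) ∈ C := by
        intro y hy
        refine ⟨mul_mem (hyD' y hy) (by rw [hu0B y hy]; exact hyD y hy),
          Subgroup.mem_centralizer_singleton_iff.mpr ?_⟩
        have hc : Commute y (u0 * y * u0) := L.central y hy _ (by rw [hu0B y hy]; exact (hyD y hy).1)
        calc y * (u0 * y * u0) * u0 = y * (u0 * y) * (u0 * u0) := by group
          _ = u0 * u0 * y * (u0 * y) := by rw [inv_mul_self hu0.1]; group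
          _ = u0 * ((u0 * y * u0) * y) * (1 : G) := by
            rw [show u0 * ((u0 * y * u0) * y) * (1 : G) = u0 * u0 * y * (u0 * y) by group]
          _ = u0 * (y * (u0 * y * u0)) := by rw [← hc.eq, mul_one]
      refine le_trans (Subgroup.card_le_of_le inf_le_right) ?_
      refine Nat.card_le_card_of_injective (fun y : L.B => (⟨_, hmemC y.1 y.2⟩ : C)) fun y1 y2 e' => ?_
      have e2 : y1.1 * (u0 * y1.1 * u0) = y2.1 * (u0 * y2.1 * u0) := congrArg Subtype.val e'
      rw [hu0B _ y1.2, hu0B _ y2.2] at e2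
      have e3 : g * (y2.1 * y1.1⁻¹) * g⁻¹ ∈ L.B := by
        have : g * (y2.1 * y1.1⁻¹) * g⁻¹ = y2.1⁻¹ * y1.1 := by
          calc g * (y2.1 * y1.1⁻¹) * g⁻¹ = y2.1⁻¹ * (y2.1 * (g * y2.1 * g⁻¹)) * (g * y1.1 * g⁻¹)⁻¹ := by
                group
            _ = y2.1⁻¹ * y1.1 := by rw [← e2]; group
        rw [this]
        exact mul_mem (inv_mem y2.2) y1.2
      exact Subtype.ext (mul_inv_eq_one.mp (htwin _ (mul_mem y2.2 (inv_mem y1.2)) e3)).symm
  have hbound := L.bound D' inf_le_left hDodd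
  have hfin : (L.q - 1) * (L.q + 1) * Nat.card C ≤ L.q * (L.q - 1) * Nat.card C :=
    calc (L.q - 1) * (L.q + 1) * Nat.card C ≤ Nat.card I * Nat.card C :=
          Nat.mul_le_mul_right _ (hUcard.trans hUI)
      _ ≤ Nat.card D' := hIC
      _ ≤ L.q * (L.q - 1) * Nat.card (D' ⊓ L.B : Subgroup G) := hbound
      _ ≤ _ := Nat.mul_le_mul_left _ hDB
  have := Nat.le_of_mul_le_mul_right hfin Nat.card_pos
  rw [Nat.mul_comm L.q] at this
  have := Nat.le_of_mul_le_mul_left this (by omega)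
  omega

end Hyp

end Cfsg.Agent.OddChar.InvCentAb
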