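import Cfsg.Agent.OddChar.InvCentAb.Basics
import Cfsg.Agent.S0058
import Cfsg.Agent.FGS2.SchurTransfer
import Cfsg.Agent.Linear.SylowSL2
import Cfsg.Agent.Linear.SL2Facts
import Cfsg.Agent.Linear.Card

/-! Reduction by normal subgroups of odd order. -/

set_option autoImplicit false
set_option linter.unusedSectionVars false
set_option linter.style.haveILetI false

namespace Cfsg.Agent.OddChar.InvCentAb

open Subgroup MulAction Matrix
open scoped Pointwise

variable {G : Type*} [Group G] [Finite G]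

theorem eq_one_of_pow_coprime {z : G} {a b : ℕ} (hab : a.Coprime b) (ha : z ^ a = 1) (hb : z ^ b = 1) :
    z = 1 :=
  orderOf_eq_one_iff.mp (Nat.eq_one_of_dvd_coprimes hab (orderOf_dvd_of_pow_eq_one ha)
    (orderOf_dvd_of_pow_eq_one hb))

theorem two_pow_pow_eq_one {P : Sylow 2 G} {a : G} (ha : a ∈ (P : Subgroup G)) :
    a ^ Nat.card P = 1 :=
  congrArg Subtype.val (pow_card_eq_one' (x := (⟨a, ha⟩ : P)))

theorem sylow_coprime_odd {P : Sylow 2 G} {n : ℕ} (hn : Odd n) : (Nat.card P).Coprime n := by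
  obtain ⟨k, hk⟩ := P.isPGroup'.exists_card_eq
  rw [hk]
  exact Nat.Coprime.pow_left _ (Nat.coprime_two_left.mpr hn)

theorem eq_one_of_mem_odd {P : Sylow 2 G} {K : Subgroup G} (hK : Odd (Nat.card K)) {x : G}
    (hP : x ∈ (P : Subgroup G)) (hx : x ∈ K) : x = 1 :=
  eq_one_of_pow_coprime (sylow_coprime_odd (P := P) hK) (two_pow_pow_eq_one hP)
    (congrArg Subtype.val (pow_card_eq_one' (x := (⟨x, hx⟩ : K))))

namespace Hyp

variable (h : Hyp G)

include h

theorem eq_top_of (K : Subgroup G) (hinv : ∀ v : G, orderOf v = 2 → v ∈ K) (P : Sylow 2 G)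
    (hP : AC P ≤ K) : K = ⊤ := by
  refine eq_top_iff.mpr fun g _ => ?_
  obtain ⟨u, hu⟩ := h.exists_inv P
  obtain ⟨Q, hQ⟩ := h.exists_ne P
  obtain ⟨x, hx⟩ := h.exists_inv Q
  obtain ⟨k, hk, e⟩ := h.conj_in K hu hx hQ.symm (hinv u hu.1) (hinv x hx.1)
    (inv_conj hu.1 g) (hinv _ (inv_conj hu.1 g))
  have hc : Commute (k⁻¹ * g) u := by
    have e' : g * u = k * u * k⁻¹ * g := by rw [e]; group
    calc k⁻¹ * g * u = k⁻¹ * (g * u) := mul_assoc _ _ _
      _ = u * (k⁻¹ * g) := by rw [e']; group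
  have := K.mul_mem hk (hP (h.mem_ac hu hc))
  rwa [mul_inv_cancel_left] at this

theorem odd_normal_le_ac (N : Subgroup G) [N.Normal] (hN : Odd (Nat.card N)) (P : Sylow 2 G) :
    N ≤ AC P := by
  haveI : IsMulCommutative (P : Subgroup G) := ⟨⟨fun a b => Subtype.ext (h.sylow_comm a.2 b.2)⟩⟩
  have e := S0058.result (P : Subgroup G) N (h.noncyclic P)
    (by rw [Subgroup.normalizer_eq_top]; exact le_top) (sylow_coprime_odd (P := P) hN)
  rw [← e]
  refine iSup₂_le fun a ha c hc => ?_
  obtain ⟨k, hk⟩ := (IsPGroup.iff_orderOf.mp P.isPGroup') ⟨a, ha.1⟩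
  rw [← Subgroup.orderOf_coe] at hk
  have hk0 : 0 < k := by
    rcases Nat.eq_zero_or_pos k with rfl | h'
    · exact absurd (orderOf_eq_one_iff.mp (by simpa using hk)) ha.2
    · exact h'
  have hz : orderOf (a ^ (2 ^ (k - 1))) = 2 := by
    rw [orderOf_pow_of_dvd (pow_ne_zero _ two_ne_zero) (hk ▸ pow_dvd_pow 2 (Nat.sub_le k 1)), hk,
      Nat.pow_div (Nat.sub_le k 1) two_pos, show k - (k - 1) = 1 by omega, pow_one]
  refine h.mem_ac ⟨hz, Subgroup.pow_mem _ ha.1 _⟩ (Commute.pow_right ?_ _)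
  exact Subgroup.mem_centralizer_singleton_iff.mp hc.2

theorem odd_normal_central (N : Subgroup G) [N.Normal] (hN : Odd (Nat.card N)) :
    N ≤ Subgroup.center G := by
  rw [← SetLike.coe_subset_coe, ← Subgroup.centralizer_eq_top_iff_subset]
  obtain ⟨v, hv⟩ : ∃ P : Sylow 2 G, True := ⟨Classical.arbitrary _, trivial⟩
  refine h.eq_top_of _ (fun u hu => ?_) v (fun c hc => ?_)
  · obtain ⟨P, hP⟩ := exists_sylow hu
    exact Subgroup.mem_centralizer_iff.mpr fun x hx =>
      h.ac_comm (h.odd_normal_le_ac N hN P hx) (h.sylow_le_ac P hP)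
  · exact Subgroup.mem_centralizer_iff.mpr fun x hx => h.ac_comm (h.odd_normal_le_ac N hN v hx) hc

theorem map_hyp {Q : Type*} [Group Q] [Finite Q] (f : G →* Q) (hf : Function.Surjective f)
    (hodd : Odd (Nat.card f.ker)) (hc : f.ker ≤ Subgroup.center G) : Hyp Q := by
  haveI : Fact (Nat.Prime 2) := ⟨Nat.prime_two⟩
  have hn : ∀ z ∈ f.ker, z ^ Nat.card f.ker = 1 := fun z hz =>
    congrArg Subtype.val (pow_card_eq_one' (x := (⟨z, hz⟩ : f.ker)))
  refine ⟨?_, ?_, ?_⟩
  · intro t ht a b hat hbt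
    obtain ⟨g, rfl⟩ := hf t
    obtain ⟨A, rfl⟩ := hf a
    obtain ⟨B, rfl⟩ := hf b
    set t' := g ^ Nat.card f.ker with ht'
    have hft : f t' = f g := by
      obtain ⟨k, hk⟩ := hodd
      rw [ht', map_pow, hk, pow_succ, pow_mul, pow_two, inv_mul_self ht, one_pow, one_mul]
    have hgg : g * g ∈ f.ker := by rw [MonoidHom.mem_ker, map_mul]; exact inv_mul_self ht
    have ht2 : t' * t' = 1 := by
      rw [ht', ← (Commute.refl g).mul_pow]; exact hn _ hgg
    have hto : orderOf t' = 2 := inv_of_mul_self ht2 fun e => inv_ne_one ht (by rw [← hft, e, map_one])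
    have key : ∀ c : G, Commute (f c) (f g) → Commute c t' := by
      intro c hcg
      set z := c * t' * c⁻¹ * t'⁻¹ with hz
      have hzk : z ∈ f.ker := by
        rw [MonoidHom.mem_ker, hz]
        simp only [map_mul, map_inv, hft, hcg.eq]
        group
      have hzc : z * t' = t' * z := (Subgroup.mem_center_iff.mp (hc hzk) t').symm
      have hz2 : z * z = 1 := by
        have e1 : (z * t') * (z * t') = 1 := by
          rw [show z * t' = c * t' * c⁻¹ by rw [hz]; group,
            show c * t' * c⁻¹ * (c * t' * c⁻¹) = c * (t' * t') * c⁻¹ by group, ht2]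
          group
        calc z * z = z * z * (t' * t') := by rw [ht2, mul_one]
          _ = z * (z * t') * t' := by group
          _ = z * (t' * z) * t' := by rw [hzc]
          _ = z * t' * (z * t') := by group
          _ = 1 := e1
      have hz1 : z = 1 := eq_one_of_pow_coprime (Nat.coprime_two_left.mpr hodd)
        (by rw [pow_two]; exact hz2) (hn z hzk)
      calc c * t' = z * t' * c := by rw [hz]; group
        _ = t' * c := by rw [hz1, one_mul]
    exact (h.comm t' hto A B (key A hat) (key B hbt)).map f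
  · intro R
    obtain ⟨P, rfl⟩ := Sylow.mapSurjective_surjective hf 2 R
    intro hR
    apply h.noncyclic P
    rw [Sylow.coe_mapSurjective] at hR
    refine isCyclic_of_injective (f.subgroupMap (P : Subgroup G)) fun a b e => ?_
    have e' : f a.1 = f b.1 := congrArg Subtype.val e
    have : a.1⁻¹ * b.1 = 1 := eq_one_of_mem_odd (P := P) hodd (mul_mem (inv_mem a.2) b.2)
      (by rw [MonoidHom.mem_ker, map_mul, map_inv, e', inv_mul_cancel])
    exact Subtype.ext (inv_mul_eq_one.mp this)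
  · intro R
    obtain ⟨P, rfl⟩ := Sylow.mapSurjective_surjective hf 2 R
    intro hR
    rw [Sylow.coe_mapSurjective] at hR
    refine h.nonnormal P ⟨fun x hx g => ?_⟩
    obtain ⟨y, hy, e⟩ := hR.conj_mem (f x) ⟨x, hx, rfl⟩ (f g)
    have hzk : y⁻¹ * (g * x * g⁻¹) ∈ f.ker := by
      rw [MonoidHom.mem_ker]
      simp only [map_mul, map_inv, e]
      group
    have hcom : Commute y (y⁻¹ * (g * x * g⁻¹)) := Subgroup.mem_center_iff.mp (hc hzk) y
    have hpow : (y⁻¹ * (g * x * g⁻¹)) ^ Nat.card P = 1 := by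
      have := hcom.mul_pow (Nat.card P)
      rw [mul_inv_cancel_left, conj_pow, two_pow_pow_eq_one hx, two_pow_pow_eq_one hy, one_mul] at this
      rw [← this]; group
    have hz1 := eq_one_of_pow_coprime (sylow_coprime_odd (P := P) hodd) hpow (hn _ hzk)
    rw [← inv_mul_eq_one.mp hz1]
    exact hy

end Hyp

section SLTwo

variable {F : Type} [Field F] [Fintype F]

local notation "SL" => Matrix.SpecialLinearGroup (Fin 2) F

theorem charP_two (h2 : (2 : F) = 0) : CharP F 2 :=
  CharTwo.of_one_ne_zero_of_two_eq_zero one_ne_zero h2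

theorem exists_card_eq_two_pow (h2 : (2 : F) = 0) : ∃ f, 0 < f ∧ Fintype.card F = 2 ^ f := by
  haveI := charP_two h2
  obtain ⟨f, -, hf⟩ := FiniteField.card F 2
  exact ⟨f, f.2, hf⟩

theorem card_sylow_two_SL (h2 : (2 : F) = 0) (S : Sylow 2 SL) : Nat.card S = Fintype.card F := by
  haveI : Fact (Nat.Prime 2) := ⟨Nat.prime_two⟩
  obtain ⟨f, hf0, hf⟩ := exists_card_eq_two_pow h2
  apply Nat.dvd_antisymm
  · have hd : Nat.card S ∣ Fintype.card F * (Fintype.card F ^ 2 - 1) := by
      rw [← Linear.card_SL_two]; exact Subgroup.card_subgroup_dvd_card _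
    refine (sylow_coprime_odd ?_).dvd_of_dvd_mul_right hd
    rw [Nat.odd_iff, hf, ← pow_mul]
    have h1 : 2 ∣ 2 ^ (f * 2) := dvd_pow_self 2 (by omega)
    have h3 : 0 < 2 ^ (f * 2) := Nat.two_pow_pos _
    omega
  · rw [hf]
    exact S.pow_dvd_card_of_pow_dvd_card (by rw [Linear.card_SL_two, hf]; exact Dvd.intro _ rfl)

theorem sq_eq_one_of_commute (h2 : (2 : F) = 0) {g c : SL} (hg : orderOf g = 2) (hc : Commute c g) :
    c * c = 1 := by
  have hgg : g * g = 1 := inv_mul_self hg
  have hg2 : g.1 * g.1 = 1 := congrArg Subtype.val hgg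
  have hg1 : g ≠ 1 := inv_ne_one hg
  have hdg := g.2
  rw [Matrix.det_fin_two] at hdg
  have hdc := c.2
  rw [Matrix.det_fin_two] at hdc
  have a00 := congrFun (congrFun hg2 0) 0
  simp only [Matrix.mul_apply, Fin.sum_univ_two, Matrix.one_apply_eq] at a00
  have htr : g.1 0 0 + g.1 1 1 = 0 := by
    have : (g.1 0 0 + g.1 1 1) * g.1 0 0 = 0 := by linear_combination a00 + hdg + h2
    rcases mul_eq_zero.mp this with e | e
    · exact e
    · rw [e] at hdg a00
      have a11 := congrFun (congrFun hg2 1) 1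
      simp only [Matrix.mul_apply, Fin.sum_univ_two, Matrix.one_apply_eq] at a11
      have : g.1 1 1 * g.1 1 1 = 0 := by linear_combination a11 + hdg + h2 - g.1 1 1 * 0
      rw [e, mul_self_eq_zero.mp this, add_zero]
  have hcg : c.1 * g.1 = g.1 * c.1 := congrArg Subtype.val hc.eq
  have c00 := congrFun (congrFun hcg 0) 0
  have c01 := congrFun (congrFun hcg 0) 1
  have c10 := congrFun (congrFun hcg 1) 0
  simp only [Matrix.mul_apply, Fin.sum_univ_two] at c00 c01 c10
  have hne : g.1 0 1 ≠ 0 ∨ g.1 1 0 ≠ 0 := by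
    by_contra hh
    push Not at hh
    apply hg1
    rw [hh.1, hh.2] at hdg
    rw [hh.1, hh.2] at a00
    have h00 : g.1 0 0 = 1 := by
      have : (g.1 0 0 - 1) * (g.1 0 0 - 1) = 0 := by linear_combination a00 + (1 - g.1 0 0) * h2
      exact sub_eq_zero.mp (mul_self_eq_zero.mp this)
    have h11 : g.1 1 1 = 1 := by rw [h00] at hdg; linear_combination hdg
    ext i j
    fin_cases i <;> fin_cases j <;> simp [h00, h11, hh.1, hh.2]
  have hctr : c.1 0 0 + c.1 1 1 = 0 := by
    rcases hne with e | e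
    · refine mul_left_cancel₀ e ?_
      linear_combination -c01 + (c.1 0 1) * htr + (g.1 0 1 * c.1 0 0 - g.1 0 0 * c.1 0 1) * h2
    · refine mul_left_cancel₀ e ?_
      linear_combination c10 + (c.1 1 0) * htr + (g.1 1 0 * c.1 0 0 - g.1 0 0 * c.1 1 0) * h2
  apply Subtype.ext
  change c.1 * c.1 = 1
  ext i j
  fin_cases i <;> fin_cases j <;> simp [Matrix.mul_apply, Fin.sum_univ_two]
  · linear_combination c.1 0 0 * hctr - hdc + (0 : F) * h2 + (c.1 0 0 * 0) * h2 - h2
  · linear_combination c.1 0 1 * hctr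
  · linear_combination c.1 1 0 * hctr
  · linear_combination c.1 1 1 * hctr - hdc - h2

end SLTwo

/-- Data of a central extension of `SL₂` by a group of odd order. -/
structure Model (G : Type*) [Group G] where
  F : Type
  [fF : Field F]
  [ftF : Fintype F]
  h2 : (2 : F) = 0
  ψ : G →* Matrix.SpecialLinearGroup (Fin 2) F
  surj : Function.Surjective ψ
  odd : Odd (Nat.card ψ.ker)
  central : ψ.ker ≤ Subgroup.center G

attribute [instance] Model.fF Model.ftF

namespace Model

variable (M : Model G)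

theorem inj_on {P : Sylow 2 G} {a b : G} (ha : a ∈ (P : Subgroup G)) (hb : b ∈ (P : Subgroup G))
    (e : M.ψ a = M.ψ b) : a = b :=
  inv_mul_eq_one.mp (eq_one_of_mem_odd (P := P) M.odd (mul_mem (inv_mem ha) hb)
    (by rw [MonoidHom.mem_ker, map_mul, map_inv, e, inv_mul_cancel]))

theorem card_sylow (P : Sylow 2 G) : Nat.card P = Fintype.card M.F := by
  haveI : Fact (Nat.Prime 2) := ⟨Nat.prime_two⟩
  rw [← card_sylow_two_SL M.h2 (P.mapSurjective M.surj)]
  refine Nat.card_eq_of_bijective (fun x : P => (⟨M.ψ x.1, Subgroup.mem_map_of_mem _ x.2⟩ :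
    ((P : Subgroup G).map M.ψ : Subgroup _))) ⟨fun a b e => ?_, ?_⟩
  · exact Subtype.ext (M.inj_on a.2 b.2 (congrArg Subtype.val e))
  · rintro ⟨_, x, hx, rfl⟩
    exact ⟨⟨x, hx⟩, rfl⟩

theorem card_eq : Nat.card G = Fintype.card M.F * (Fintype.card M.F ^ 2 - 1) * Nat.card M.ψ.ker := by
  rw [Subgroup.card_eq_card_quotient_mul_card_subgroup M.ψ.ker,
    Nat.card_congr (QuotientGroup.quotientKerEquivOfSurjective M.ψ M.surj).toEquiv, Linear.card_SL_two]

/-- Elements commuting with an involution square into the kernel. -/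
theorem sq_mem_ker {v c : G} (hv : orderOf v = 2) (hc : Commute c v) : c * c ∈ M.ψ.ker := by
  have hne : M.ψ v ≠ 1 := fun e => by
    obtain ⟨P, hP⟩ := exists_sylow hv
    exact inv_ne_one hv (M.inj_on hP (one_mem _) (e.trans (map_one _).symm))
  rw [MonoidHom.mem_ker, map_mul]
  exact sq_eq_one_of_commute M.h2 (inv_of_mul_self (by rw [← map_mul, inv_mul_self hv, map_one]) hne)
    (hc.map M.ψ)

theorem four_le (h : Hyp G) : 4 ≤ Fintype.card M.F := by
  obtain ⟨f, hf0, hf⟩ := exists_card_eq_two_pow M.h2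
  rcases Nat.lt_or_ge f 2 with hf1 | hf1
  · exfalso
    obtain ⟨P⟩ : Nonempty (Sylow 2 G) := inferInstance
    haveI : Fact (Nat.Prime 2) := ⟨Nat.prime_two⟩
    apply h.noncyclic P
    refine isCyclic_of_prime_card (p := 2) ?_
    rw [M.card_sylow P, hf, show f = 1 by omega, pow_one]
  · rw [hf]
    exact le_trans (by norm_num) (Nat.pow_le_pow_right two_pos hf1)

theorem commutator_inf_ker (h : Hyp G) : commutator G ⊓ M.ψ.ker = ⊥ := by
  rw [← Subgroup.card_eq_one]
  by_contra hne
  obtain ⟨p, hp, hpd⟩ := Nat.exists_prime_and_dvd hne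
  haveI : Fact p.Prime := ⟨hp⟩
  obtain ⟨⟨z, hzd, hzk⟩, hzo⟩ := exists_prime_orderOf_dvd_card' p hpd
  rw [← Subgroup.orderOf_coe] at hzo
  have hp2 : p ≠ 2 := by
    intro e
    have hd : orderOf (⟨z, hzk⟩ : M.ψ.ker) ∣ Nat.card M.ψ.ker := orderOf_dvd_natCard _
    rw [← Subgroup.orderOf_coe, hzo, e] at hd
    exact Nat.not_even_iff_odd.mpr M.odd (even_iff_two_dvd.mpr hd)
  obtain ⟨R⟩ : Nonempty (Sylow p G) := inferInstance
  haveI := charP_two M.h2
  haveI : Fact (Nat.Prime 2) := ⟨Nat.prime_two⟩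
  have hcyc : IsCyclic ((R : Subgroup G).map M.ψ) := by
    have := Linear.isCyclic_sylow_SL2 2 p hp2 hp2 (R.mapSurjective M.surj)
    exact this
  have hab : ∀ a b : R, a * b = b * a := by
    refine commutative_of_cyclic_center_quotient (M.ψ.subgroupMap (R : Subgroup G)) fun a ha => ?_
    rw [Subgroup.mem_center_iff]
    intro b
    exact Subtype.ext (Subgroup.mem_center_iff.mp (M.central
      (show M.ψ a.1 = 1 from congrArg Subtype.val ha)) b.1)
  obtain ⟨hz, hzc⟩ := FGS2.pow_index_mem_commutator (R : Subgroup G) (M.central hzk) hzd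
  have hbot : commutator R = ⊥ := by
    rw [_root_.commutator_def, Subgroup.commutator_eq_bot_iff_le_centralizer]
    intro a _
    exact Subgroup.mem_centralizer_iff.mpr fun b _ => hab b a
  rw [hbot, Subgroup.mem_bot] at hzc
  have h1 : z ^ (R : Subgroup G).index = 1 := congrArg Subtype.val hzc
  have h2 : z ^ p = 1 := hzo ▸ pow_orderOf_eq_one z
  have := eq_one_of_pow_coprime ((Nat.Prime.coprime_iff_not_dvd hp).mpr R.not_dvd_index) h2 h1
  have hzo' : orderOf z = p := hzo
  rw [this, orderOf_one] at hzo'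
  exact hp.ne_one hzo'.symm

/-- A central extension of `SL₂` by an odd group splits. -/
theorem split (M : Model G) (h : Hyp G) :
    ∃ (F : Type) (_ : Field F) (_ : Fintype F) (A : Type) (_ : CommGroup A) (_ : Finite A),
      CharP F 2 ∧ Odd (Nat.card A) ∧ Nonempty (G ≃* Matrix.SpecialLinearGroup (Fin 2) F × A) := by
  classical
  have hperf := Linear.sl2_perfect (F := M.F) (M.four_le h)
  have htop : (commutator G).map M.ψ = ⊤ := by
    rw [_root_.commutator_def, Subgroup.map_commutator, Subgroup.map_top_of_surjective _ M.surj,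
      ← _root_.commutator_def, hperf]
  let Φ : G →* Matrix.SpecialLinearGroup (Fin 2) M.F × Abelianization G :=
    M.ψ.prod Abelianization.of
  have hinj : Function.Injective Φ := by
    rw [injective_iff_map_eq_one]
    intro g hg
    have h1 : M.ψ g = 1 := congrArg Prod.fst hg
    have h2 : Abelianization.of g = 1 := congrArg Prod.snd hg
    have hgc : g ∈ commutator G := by rwa [← Abelianization.ker_of, MonoidHom.mem_ker]
    have : g ∈ commutator G ⊓ M.ψ.ker := Subgroup.mem_inf.mpr ⟨hgc, h1⟩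
    rwa [M.commutator_inf_ker h, Subgroup.mem_bot] at this
  have hsurj : Function.Surjective Φ := by
    rintro ⟨s, a⟩
    obtain ⟨g, rfl⟩ : ∃ g, Abelianization.of g = a := QuotientGroup.mk_surjective a
    obtain ⟨c, hc, hcs⟩ : s * (M.ψ g)⁻¹ ∈ (commutator G).map M.ψ := htop ▸ Subgroup.mem_top _
    refine ⟨c * g, Prod.ext ?_ ?_⟩
    · simp [Φ, hcs]
    · have : Abelianization.of c = 1 := by rwa [← MonoidHom.mem_ker, Abelianization.ker_of]
      simp [Φ, this]
  let e : G ≃* _ := MulEquiv.ofBijective Φ ⟨hinj, hsurj⟩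
  have hA : Odd (Nat.card (Abelianization G)) := by
    have hc := Nat.card_congr e.toEquiv
    rw [M.card_eq, Nat.card_prod, Linear.card_SL_two] at hc
    have hpos : 0 < Fintype.card M.F * (Fintype.card M.F ^ 2 - 1) := by
      rw [← Linear.card_SL_two]; exact Nat.card_pos
    rw [← Nat.eq_of_mul_eq_mul_left hpos hc]
    exact M.odd
  obtain ⟨A', _, _, ⟨e'⟩⟩ := Finite.exists_type_univ_nonempty_mulEquiv.{_, 0} (Abelianization G)
  letI : CommGroup A' := { (inferInstance : Group A') with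
    mul_comm := fun a b => e'.symm.injective (by rw [map_mul, map_mul, mul_comm]) }
  exact ⟨M.F, inferInstance, inferInstance, A', inferInstance, inferInstance, charP_two M.h2,
    Nat.card_congr e'.toEquiv ▸ hA, ⟨e.trans (MulEquiv.prodCongr (MulEquiv.refl _) e')⟩⟩

end Model

end Cfsg.Agent.OddChar.InvCentAb
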