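import Cfsg.Agent.OddChar.InvCentAb.Lines

/-! In the reduced case two point stabilizers are trivial on centralizers and two-point stabilizers are small. -/

set_option autoImplicit false
set_option linter.unusedSectionVars false
set_option linter.style.haveILetI false

namespace Cfsg.Agent.OddChar.InvCentAb

open Subgroup MulAction
open scoped Pointwise

variable {G : Type*} [Group G] [Finite G]

/-- The centralizers of distinct Sylow subgroups meet trivially. -/
def Disj (G : Type*) [Group G] : Prop :=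
  ∀ a b : Sylow 2 G, a ≠ b → ∀ e : G, e ∈ AC a → e ∈ AC b → e = 1

/-- The centralizer of a point acts semiregularly on the others. -/
def Semi (G : Type*) [Group G] : Prop :=
  ∀ a b : Sylow 2 G, a ≠ b → ∀ e : G, e ∈ AC a → e • b = b → e = 1

theorem exists_pow_inv {P : Sylow 2 G} {c : G} (hc : c ∈ (P : Subgroup G)) (h1 : c ≠ 1) :
    ∃ k : ℕ, orderOf (c ^ k) = 2 := by
  obtain ⟨k, hk⟩ := (IsPGroup.iff_orderOf.mp P.isPGroup') ⟨c, hc⟩
  rw [← Subgroup.orderOf_coe] at hk
  obtain ⟨j, rfl⟩ : ∃ j, k = j + 1 := Nat.exists_eq_succ_of_ne_zero fun e => h1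
    (orderOf_eq_one_iff.mp (by rw [e, pow_zero] at hk; exact hk))
  exact ⟨2 ^ j, by
    rw [orderOf_pow_of_dvd (pow_ne_zero _ two_ne_zero) (hk ▸ pow_dvd_pow 2 (Nat.le_succ j)), hk,
      pow_succ, Nat.mul_div_cancel_left _ (Nat.two_pow_pos j)]⟩

namespace Hyp

variable (h : Hyp G) (hdis : Disj G)

include h hdis

theorem E_unique {a b : Sylow 2 G} (hne : a ≠ b) {p : ℕ} [hp : Fact p.Prime] {x y : G}
    (hx : x ∈ E b a) (hy : y ∈ E b a) (hxp : x ^ p = 1) (hyp : y ^ p = 1) (hx1 : x ≠ 1) :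
    y ∈ zpowers x := by
  let V : Subgroup G :=
    { carrier := {z | z ∈ E b a ∧ z ^ p = 1}
      one_mem' := ⟨one_mem _, one_pow p⟩
      mul_mem' := fun {c d} hc hd => ⟨mul_mem hc.1 hd.1, by
        rw [(h.ac_comm hc.1.1 hd.1.1).mul_pow, hc.2, hd.2, one_mul]⟩
      inv_mem' := fun {c} hc => ⟨inv_mem hc.1, by rw [inv_pow, hc.2, inv_one]⟩ }
  by_contra hy'
  have hnc : ¬ IsCyclic V := by
    intro hV
    apply hy'
    have hle : zpowers x ≤ V := Subgroup.zpowers_le.mpr ⟨hx, hxp⟩
    have hcard : Nat.card V ≤ Nat.card (zpowers x) := by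
      obtain ⟨γ, hγ⟩ := IsCyclic.exists_generator (α := V)
      rw [Nat.card_zpowers, orderOf_eq_prime hxp hx1, ← orderOf_eq_card_of_forall_mem_zpowers hγ,
        ← Subgroup.orderOf_coe]
      exact Nat.le_of_dvd hp.out.pos (orderOf_dvd_of_pow_eq_one γ.2.2)
    rw [Subgroup.eq_of_le_of_card_ge hle hcard]
    exact ⟨hy, hyp⟩
  haveI : IsMulCommutative V := ⟨⟨fun c d => Subtype.ext (h.ac_comm c.2.1.1 d.2.1.1)⟩⟩
  have hVn : V ≤ Subgroup.normalizer ((a : Subgroup G) : Set G) := fun z hz =>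
    Sylow.smul_eq_iff_mem_normalizer.mp (show z ∈ E b a from (show z ∈ E b a ∧ z ^ p = 1 from hz).1).2
  have hcop : (Nat.card V).Coprime (Nat.card a) := (sylow_coprime_odd (P := a)
    (odd_card_of_no_inv fun z hz => h.E_no_inv hne.symm z (show z ∈ E b a ∧ z ^ p = 1 from hz).1)).symm
  have e := S0058.result V (a : Subgroup G) hnc hVn hcop
  obtain ⟨v, hv⟩ := h.exists_inv a
  have hbot : (⨆ z ∈ {z : G | z ∈ V ∧ z ≠ 1}, (a : Subgroup G) ⊓ Subgroup.centralizer {z}) ≤ ⊥ := by
    refine iSup₂_le fun z hz c hc => Subgroup.mem_bot.mpr ?_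
    by_contra hc1
    obtain ⟨k, hk⟩ := exists_pow_inv hc.1 hc1
    refine hz.2 (hdis a b hne z (h.mem_ac ⟨hk, Subgroup.pow_mem _ hc.1 k⟩ ?_)
      (show z ∈ E b a ∧ z ^ p = 1 from hz.1).1.1)
    exact Commute.pow_right (Commute.symm (Subgroup.mem_centralizer_singleton_iff.mp hc.2)) k
  rw [e] at hbot
  exact inv_ne_one hv.1 (Subgroup.mem_bot.mp (hbot hv.2))

theorem semi : Semi G := by
  intro a b hne e0 he0 he0b
  by_contra he01
  obtain ⟨p, hp, hpd⟩ := Nat.exists_prime_and_dvd (n := orderOf e0)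
    (fun e => he01 (orderOf_eq_one_iff.mp e))
  haveI : Fact p.Prime := ⟨hp⟩
  set e := e0 ^ (orderOf e0 / p) with he
  have heE : e ∈ E a b := Subgroup.pow_mem _ (Subgroup.mem_inf.mpr ⟨he0, he0b⟩) _
  have heo : orderOf e = p := orderOf_pow_orderOf_div (orderOf_pos e0).ne' hpd
  have hep : e ^ p = 1 := heo ▸ pow_orderOf_eq_one e
  have he1 : e ≠ 1 := fun e' => hp.ne_one (heo ▸ e' ▸ orderOf_one)
  have hw' : ∀ w ∈ W a b, w * e * w ∈ E b a ∧ (w * e * w) ^ p = 1 ∧ w * e * w ≠ 1 := by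
    intro w hw
    have hi := inv_eq_self hw.1
    refine ⟨⟨?_, ?_⟩, ?_, ?_⟩
    · have := ac_conj heE.1 w
      rwa [hi, hw.2] at this
    · change (w * e * w) • a = a
      rw [mul_smul, mul_smul, hw.2, show e • b = b from heE.2]
      exact (W_symm hw).2
    · nth_rw 2 [← hi]
      rw [conj_pow, hep]; group
    · nth_rw 2 [← hi]
      rwa [ne_eq, conj_eq_one_iff]
  obtain ⟨w0, hw0⟩ := h.W_nonempty hne
  obtain ⟨hy0, hy0p, hy01⟩ := hw' w0 hw0
  set y0 := w0 * e * w0 with hy0def
  have hinj : ∀ w ∈ W a b, ∀ w' ∈ W a b, w * e * w = w' * e * w' → w = w' := by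
    intro w hw w' hw' hyy
    obtain ⟨z, hz⟩ := exists_sylow hw.1
    obtain ⟨z', hz'⟩ := exists_sylow hw'.1
    obtain ⟨hyE, -, -⟩ := ‹∀ w ∈ W a b, w * e * w ∈ E b a ∧ _ ∧ _› w hw
    set y := w * e * w with hy
    have hcomm : Commute e y := by
      have h1 : e * y * e⁻¹ * y⁻¹ ∈ AC b := by
        refine mul_mem ?_ (inv_mem hyE.1)
        have := ac_conj hyE.1 e
        rwa [show e • b = b from heE.2] at this
      have h2 : e * (y * e⁻¹ * y⁻¹) ∈ AC a := by
        refine mul_mem heE.1 ?_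
        have := ac_conj (inv_mem heE.1) y
        rwa [show y • a = a from hyE.2] at this
      rw [show e * (y * e⁻¹ * y⁻¹) = e * y * e⁻¹ * y⁻¹ by group] at h2
      have := hdis a b hne _ h2 h1
      rw [mul_inv_eq_one, mul_inv_eq_iff_eq_mul] at this
      exact this
    have hfix : ∀ {u : G}, orderOf u = 2 → u * e * u = y → Commute (e * y) u := by
      intro u hu hue
      have huy : u * y * u = e := by
        rw [← hue, show u * (u * e * u) * u = u * u * e * (u * u) by group, inv_mul_self hu, one_mul,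
          mul_one]
      calc e * y * u = (u * y * u) * (u * e * u) * u := by rw [hue, huy]
        _ = u * y * (u * u) * e * (u * u) := by group
        _ = u * (y * e) := by rw [inv_mul_self hu]; group
        _ = u * (e * y) := by rw [hcomm.eq]
    have hc1 : e * y ≠ 1 := fun e' => he1 (hdis a b hne e heE.1
      (by rw [mul_eq_one_iff_eq_inv.mp e']; exact inv_mem hyE.1))
    have hzz : z = z' := by
      by_contra hzz
      exact hc1 (hdis z z' hzz _ (h.mem_ac ⟨hw.1, hz⟩ (hfix hw.1 rfl))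
        (h.mem_ac ⟨hw'.1, hz'⟩ (hfix hw'.1 hyy.symm)))
    subst hzz
    by_contra hww
    have hx2 : (w * w') * (w * w') = 1 := by
      rw [mul_assoc, ← mul_assoc w', (h.sylow_comm hz' hz).eq, mul_assoc w w', inv_mul_self hw'.1,
        mul_one, inv_mul_self hw.1]
    have hx1 : w * w' ≠ 1 := fun e' => hww (by rw [mul_eq_one_iff_eq_inv.mp e', inv_eq_self hw'.1])
    have hxa : (w * w') • a = a := by rw [mul_smul, hw'.2]; exact (W_symm hw).2
    have hxo := inv_of_mul_self hx2 hx1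
    exact h.W_not_mem hne hw hz (h.uniq hxo (mul_mem hz hz') (h.inv_mem_of_fix hxo hxa))
  have hWp : Nat.card (W a b) + 1 ≤ p := by
    classical
    have hmem : ∀ w : W a b, w.1 * e * w.1 ∈ zpowers y0 := fun w =>
      h.E_unique hdis hne hy0 (hw' w.1 w.2).1 hy0p (hw' w.1 w.2).2.1 hy01
    let f : Option (W a b) → zpowers y0 := fun o => o.elim 1 fun w => ⟨_, hmem w⟩
    have hf : Function.Injective f := by
      rintro (_ | w) (_ | w') e'
      · rfl
      · exact absurd (congrArg Subtype.val e').symm (hw' w'.1 w'.2).2.2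
      · exact absurd (congrArg Subtype.val e') (hw' w.1 w.2).2.2
      · exact congrArg some (Subtype.ext (hinj _ w.2 _ w'.2 (congrArg Subtype.val e')))
    have := Nat.card_le_card_of_injective f hf
    rwa [Finite.card_option, Nat.card_zpowers, orderOf_eq_prime hy0p hy01] at this
  have hdvd : p ∣ Nat.card (invs a) := by
    set S := stabilizer G a with hS
    haveI hn : ((AC a).subgroupOf S).Normal := ⟨fun c hc g => by
      have := ac_conj (Subgroup.mem_subgroupOf.mp hc) g.1
      rwa [show g.1 • a = a from g.2] at this⟩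
    set q : S ⧸ (AC a).subgroupOf S := QuotientGroup.mk ⟨y0, hy0.2⟩ with hq
    have hq1 : q ≠ 1 := fun e' => hy01 (hdis a b hne y0
      (Subgroup.mem_subgroupOf.mp ((QuotientGroup.eq_one_iff _).mp e')) hy0.1)
    have hqp : q ^ p = 1 := by
      rw [hq, ← QuotientGroup.mk_pow, QuotientGroup.eq_one_iff]
      exact Subgroup.mem_subgroupOf.mpr (by
        rw [SubgroupClass.coe_pow]; exact hy0p ▸ one_mem _)
    have hd : orderOf q ∣ Nat.card (S ⧸ (AC a).subgroupOf S) := orderOf_dvd_natCard q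
    rw [orderOf_eq_prime hqp hq1] at hd
    have hc := Subgroup.card_eq_card_quotient_mul_card_subgroup ((AC a).subgroupOf S)
    rw [h.card_stab a, Nat.card_congr (Subgroup.subgroupOfEquivOfLe (ac_le_stab a)).toEquiv] at hc
    rwa [Nat.eq_of_mul_eq_mul_right Nat.card_pos hc]
  have h3 := h.three_le_invs a
  have := Nat.le_of_dvd (by omega) hdvd
  have := h.card_W_ge hne
  omega

omit hdis

variable (hsemi : Semi G)

include hsemi

theorem card_D_le {a b : Sylow 2 G} (hne : a ≠ b) : Nat.card (D a b) ≤ Nat.card (invs a) := by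
  obtain ⟨v, hv⟩ := h.exists_inv a
  have hmem : ∀ d : D a b, d.1 * v * d.1⁻¹ ∈ invs a := fun d => ⟨inv_conj hv.1 _, by
    have := (mem_smul_iff (g := d.1)).mpr hv.2
    rwa [show d.1 • a = a from d.2.1] at this⟩
  refine Nat.card_le_card_of_injective (fun d => (⟨_, hmem d⟩ : invs a)) fun x y e => ?_
  have e' : x.1 * v * x.1⁻¹ = y.1 * v * y.1⁻¹ := congrArg Subtype.val e
  refine Subtype.ext (inv_mul_eq_one.mp (hsemi a b hne (y.1⁻¹ * x.1) (h.mem_ac hv ?_) ?_)).symm
  · calc y.1⁻¹ * x.1 * v = y.1⁻¹ * (x.1 * v * x.1⁻¹) * x.1 := by group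
      _ = v * (y.1⁻¹ * x.1) := by rw [e']; group
  · exact (mul_mem (inv_mem y.2.2) x.2.2 : y.1⁻¹ * x.1 ∈ stabilizer G b)

theorem D_facts {a b : Sylow 2 G} (hne : a ≠ b) :
    Nat.card (D a b) = Nat.card (invs a) ∧
      ∀ w ∈ W a b, ∀ d ∈ D a b, w * d * w = d⁻¹ := by
  have hle := h.card_D_le hsemi hne
  have key : ∀ w0 ∈ W a b, Nat.card (D a b) = Nat.card (invs a) ∧
      ∀ d ∈ D a b, w0 * d * w0 = d⁻¹ := by
    intro w0 hw0
    have hmem : ∀ w : W a b, w0 * w.1 ∈ D a b := fun w => ⟨by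
      change (w0 * w.1) • a = a
      rw [mul_smul, w.2.2]; exact (W_symm hw0).2, by
      change (w0 * w.1) • b = b
      rw [mul_smul, (W_symm w.2).2, hw0.2]⟩
    have hinj : Function.Injective fun w : W a b => (⟨_, hmem w⟩ : D a b) := fun x y e =>
      Subtype.ext (mul_left_cancel (congrArg Subtype.val e : w0 * x.1 = w0 * y.1))
    have h1 := Nat.card_le_card_of_injective _ hinj
    have h2 := h.card_W_ge hne
    refine ⟨by omega, fun d hd => ?_⟩
    obtain ⟨w, hw⟩ := (hinj.bijective_of_nat_card_le (by omega)).surjective ⟨d, hd⟩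
    have hw' : w0 * w.1 = d := congrArg Subtype.val hw
    rw [← hw', mul_inv_rev, inv_eq_self w.2.1, inv_eq_self hw0.1, ← mul_assoc w0 w0, inv_mul_self hw0.1,
      one_mul]
  obtain ⟨w0, hw0⟩ := h.W_nonempty hne
  exact ⟨(key w0 hw0).1, fun w hw => (key w hw).2⟩

/-- Non-trivial elements fixing two points fix no other point. -/
theorem fix_two {a b : Sylow 2 G} (hne : a ≠ b) {d : G} (hd : d ∈ D a b) (hd1 : d ≠ 1) {c : Sylow 2 G}
    (hc : d • c = c) : c = a ∨ c = b := by
  classical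
  by_contra hcc
  push Not at hcc
  set C := Subgroup.centralizer ({d} : Set G) with hC
  have hCodd : Odd (Nat.card C) := odd_card_of_no_inv fun u hu ho => by
    obtain ⟨R, hR⟩ := exists_sylow ho
    have hdR : d ∈ AC R := h.mem_ac ⟨ho, hR⟩ (Subgroup.mem_centralizer_singleton_iff.mp hu).symm
    by_cases hRa : R = a
    · exact hd1 (hsemi a b hne d (hRa ▸ hdR) hd.2)
    · exact hd1 (hsemi R a hRa d hdR hd.1)
  have hflip : ∀ {x y : Sylow 2 G}, x ≠ y → d • x = x → d • y = y → ∀ u ∈ W x y, u * d * u = d⁻¹ :=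
    fun hxy hx hy u hu => (h.D_facts hsemi hxy).2 u hu d ⟨hx, hy⟩
  have horb : MulAction.orbit C a = {x : Sylow 2 G | d • x = x} := by
    ext x
    constructor
    · rintro ⟨k, rfl⟩
      change d • k.1 • a = k.1 • a
      rw [← mul_smul, ← Subgroup.mem_centralizer_singleton_iff.mp k.2, mul_smul,
        show d • a = a from hd.1]
    · intro hx
      by_cases hxa : x = a
      · rw [hxa]; exact MulAction.mem_orbit_self a
      obtain ⟨z, hza, hzx, hz⟩ : ∃ z, z ≠ a ∧ z ≠ x ∧ d • z = z := by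
        by_cases hxb : x = b
        · exact ⟨c, hcc.1, hxb ▸ hcc.2, hc⟩
        · exact ⟨b, hne.symm, Ne.symm hxb, hd.2⟩
      obtain ⟨u, hu⟩ := h.W_nonempty hza.symm
      obtain ⟨u', hu'⟩ := h.W_nonempty hzx
      have e1 := hflip hza.symm hd.1 hz u hu
      have e2 := hflip hzx hz hx u' hu'
      have hk : u' * u ∈ C := by
        rw [hC, Subgroup.mem_centralizer_singleton_iff]
        have e3 : (u' * u) * d * (u' * u)⁻¹ = d := by
          rw [mul_inv_rev, inv_eq_self hu.1, inv_eq_self hu'.1,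
            show u' * u * d * (u * u') = u' * (u * d * u) * u' by group, e1,
            show u' * d⁻¹ * u' = (u'⁻¹ * d * u'⁻¹)⁻¹ by group, inv_eq_self hu'.1, e2, inv_inv]
        exact mul_inv_eq_iff_eq_mul.mp e3
      exact ⟨⟨_, hk⟩, show (u' * u) • a = x by rw [mul_smul, hu.2, hu'.2]⟩
  have hdiv : Nat.card {x : Sylow 2 G | d • x = x} ∣ Nat.card C := by
    rw [← horb]
    exact ⟨_, by rw [← Nat.card_prod]; exact Nat.card_congr (MulAction.orbitProdStabilizerEquivGroup C a).symm⟩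
  have hSodd := hCodd.of_dvd_nat hdiv
  haveI := Fintype.ofFinite (Sylow 2 G)
  obtain ⟨u, hu⟩ := h.W_nonempty hne
  have hud := hflip hne hd.1 hd.2 u hu
  have hpres : ∀ x : Sylow 2 G, d • x = x → d • u • x = u • x := by
    intro x hx
    have e : d * u = u * d⁻¹ := by
      rw [← hud, show u * (u * d * u) = u * u * d * u by group, inv_mul_self hu.1, one_mul]
    rw [← mul_smul, e, mul_smul, show d⁻¹ • x = x by rw [inv_smul_eq_iff, hx]]
  have hfree : ∀ x : Sylow 2 G, d • x = x → u • x ≠ x := by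
    intro x hx hux
    have hux' := h.inv_mem_of_fix hu.1 hux
    have hdu : d * u * d⁻¹ ∈ (x : Subgroup G) := by
      have := (mem_smul_iff (g := d)).mpr hux'
      rwa [hx] at this
    have hdd : d⁻¹ * d⁻¹ ∈ (x : Subgroup G) := by
      have := mul_mem hux' hdu
      rwa [show u * (d * u * d⁻¹) = u * d * u * d⁻¹ by group, hud] at this
    have hdodd : Odd (Nat.card (D a b)) := odd_card_of_no_inv (h.D_no_inv hne)
    have h2 := eq_one_of_mem_odd (P := x) hdodd hdd (mul_mem (inv_mem hd) (inv_mem hd))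
    refine hd1 (eq_one_of_pow_coprime (Nat.coprime_two_left.mpr hdodd) ?_
      (congrArg Subtype.val (pow_card_eq_one' (x := (⟨d, hd⟩ : D a b)))))
    rw [pow_two]
    exact inv_eq_one.mp (by rw [mul_inv_rev]; exact h2)
  have h0 : ∑ _x ∈ Finset.univ.filter (fun x : Sylow 2 G => d • x = x), (1 : ZMod 2) = 0 := by
    refine Finset.sum_involution (fun x _ => u • x) (fun x _ => by decide) (fun x hx _ => ?_)
      (fun x hx => ?_) (fun x _ => ?_)
    · exact hfree x (Finset.mem_filter.mp hx).2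
    · exact Finset.mem_filter.mpr ⟨Finset.mem_univ _, hpres x (Finset.mem_filter.mp hx).2⟩
    · change u • u • x = x
      rw [← mul_smul, inv_mul_self hu.1, one_smul]
  rw [Finset.sum_const, nsmul_eq_mul, mul_one, ZMod.natCast_eq_zero_iff_even] at h0
  rw [Nat.card_coe_set_eq, ← Set.ncard_coe_finset] at *
  rw [Finset.coe_filter_univ] at h0
  exact Nat.not_even_iff_odd.mpr hSodd h0

end Hyp

end Cfsg.Agent.OddChar.InvCentAb
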